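import Cfsg.Agent.Lib.Helper14.A4A4Brute

/-! Order-4 subgroups of the Sylow 2-subgroup of `A₄ × A₄`. -/

namespace Cfsg.Agent.Lib.Helper14.A4A4
open Cfsg.Agent.Lib.Helper14.A4A4Brute
open scoped Pointwise

theorem sq_of_two_pow (x : A4 × A4) (k : ℕ) (h : x ^ 2 ^ k = 1) : x * x = 1 := by
  have h1 := orderOf_dvd_of_pow_eq_one h
  have h2 := orderOf_dvd_of_pow_eq_one (exp6 x)
  have h3 : orderOf x ∣ Nat.gcd (2 ^ k) 6 := Nat.dvd_gcd h1 h2
  have h4 : Nat.gcd (2 ^ k) 6 ∣ 2 := by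
    have hc : Nat.Coprime (2 ^ k) 3 := Nat.Coprime.pow_left k (by norm_num)
    have h6 : (6 : ℕ) = 2 * 3 := rfl
    rw [h6, Nat.Coprime.gcd_mul_right_cancel_right 2 hc.symm]
    exact Nat.gcd_dvd_right _ _
  have := orderOf_dvd_iff_pow_eq_one.1 (h3.trans h4)
  rwa [pow_two] at this

theorem c_pow : c ^ 3 = 1 := Subtype.ext (by decide)
theorem c_ne : c ≠ 1 := fun h => absurd (congrArg Subtype.val h) (by decide)

theorem orderOf_c : orderOf c = 3 := orderOf_eq_prime c_pow c_ne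

def Q0 : Subgroup (A4 × A4) := (Subgroup.zpowers c).prod (Subgroup.zpowers c)

theorem card_Q0 : Nat.card Q0 = 9 := by
  rw [Q0, Nat.card_congr (Subgroup.prodEquiv _ _).toEquiv, Nat.card_prod, Nat.card_zpowers, orderOf_c]

theorem card_G : Nat.card (A4 × A4) = 144 := by
  rw [Nat.card_prod]
  have : Nat.card A4 = 12 := by rw [Nat.card_eq_fintype_card]; decide
  rw [this]

theorem fact144 : (144 : ℕ).factorization 3 = 2 := by
  have h : (144 : ℕ) = 3 ^ 2 * 16 := by norm_num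
  rw [h, Nat.factorization_mul (by norm_num) (by norm_num), Nat.factorization_pow]
  simp [Nat.Prime.factorization (show Nat.Prime 3 by norm_num)]
  exact Nat.factorization_eq_zero_of_not_dvd (by norm_num)

theorem exists_conj (Q : Sylow 3 (A4 × A4)) :
    ∃ g : A4 × A4, ∀ r ∈ Q0, g * r * g⁻¹ ∈ (Q : Subgroup (A4 × A4)) := by
  haveI : Fact (Nat.Prime 3) := ⟨by norm_num⟩
  let S0 : Sylow 3 (A4 × A4) := Sylow.ofCard Q0 (by rw [card_Q0, card_G, fact144]; norm_num)
  obtain ⟨g, hg⟩ := MulAction.exists_smul_eq (A4 × A4) S0 Q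
  refine ⟨g, fun r hr => ?_⟩
  rw [← hg, Sylow.smul_def]
  have : (MulAut.conj g • r) ∈ MulAut.conj g • (S0 : Subgroup (A4 × A4)) :=
    Subgroup.smul_mem_pointwise_smul _ _ _ hr
  exact this

theorem main (X : Sylow 2 (A4 × A4)) (Q : Sylow 3 (A4 × A4)) (B : Subgroup (A4 × A4))
    (hBX : B ≤ (X : Subgroup _)) (hB4 : Nat.card ↥B = 4) :
    B ⊓ ((X : Subgroup _) ⊓ Subgroup.prod ⊤ ⊥) ≠ ⊥ ∨ B ⊓ ((X : Subgroup _) ⊓ Subgroup.prod ⊥ ⊤) ≠ ⊥ ∨
      ∃ R : Subgroup (A4 × A4), R ≤ (Q : Subgroup _) ∧ Nat.card ↥R = 3 ∧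
        R ≠ (Q : Subgroup _) ⊓ Subgroup.prod ⊤ ⊥ ∧ R ≠ (Q : Subgroup _) ⊓ Subgroup.prod ⊥ ⊤ ∧
        R ≤ Subgroup.normalizer (B : Set _) := by
  classical
  have hsq : ∀ b ∈ B, b * b = 1 := fun b hb => by
    obtain ⟨k, hk⟩ := X.2 ⟨b, hBX hb⟩
    exact sq_of_two_pow b k (congrArg Subtype.val hk)
  obtain ⟨x, hxB, hx1⟩ : ∃ x ∈ B, x ≠ 1 := by
    by_contra hcon
    push Not at hcon
    have : B = ⊥ := (Subgroup.eq_bot_iff_forall _).2 hcon
    rw [this, Subgroup.card_bot] at hB4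
    omega
  obtain ⟨y, hyB, hy1, hyx⟩ : ∃ y ∈ B, y ≠ 1 ∧ x ≠ y := by
    by_contra hcon
    push Not at hcon
    have hsub : (B : Set (A4 × A4)) ⊆ ({1, x} : Set (A4 × A4)) := fun b hb => by
      by_cases h1 : b = 1
      · left; exact h1
      · right; exact (hcon b hb h1).symm
    have h2 : (B : Set (A4 × A4)).ncard ≤ 2 := by
      calc (B : Set (A4 × A4)).ncard ≤ ({1, x} : Set (A4 × A4)).ncard :=
            Set.ncard_le_ncard hsub (Set.toFinite _)
        _ = 2 := Set.ncard_pair hx1.symm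
    have h3 : (B : Set (A4 × A4)).ncard = 4 := hB4
    omega
  have hxx := hsq x hxB
  have hyy := hsq y hyB
  have hxy1 : x * y ≠ 1 := by
    intro h
    apply hyx
    have : x * y = x * x := by rw [h, hxx]
    exact (mul_left_cancel this).symm
  have hBeq : ∀ b ∈ B, b = 1 ∨ b = x ∨ b = y ∨ b = x * y := by
    let s : Finset (A4 × A4) := {1, x, y, x * y}
    have hs4 : s.card = 4 := by
      rw [Finset.card_insert_of_notMem (by simp [hx1.symm, hy1.symm, hxy1.symm]),
        Finset.card_insert_of_notMem (by simp [hyx, hy1]),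
        Finset.card_insert_of_notMem (by simp [hx1]), Finset.card_singleton]
    have hsub : (s : Set (A4 × A4)) ⊆ (B : Set (A4 × A4)) := by
      intro b hb
      simp only [s, Finset.coe_insert, Finset.coe_singleton, Set.mem_insert_iff,
        Set.mem_singleton_iff] at hb
      rcases hb with rfl | rfl | rfl | rfl
      · exact B.one_mem
      · exact hxB
      · exact hyB
      · exact B.mul_mem hxB hyB
    have heq := Set.eq_of_subset_of_ncard_le hsub
      (by rw [Set.ncard_coe_finset, hs4]; exact le_of_eq hB4) (Set.toFinite _)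
    intro b hb
    have : b ∈ (s : Set (A4 × A4)) := by rw [heq]; exact hb
    simpa [s] using this
  have first : ∀ z ∈ B, z ≠ 1 → z.2 = 1 → B ⊓ ((X : Subgroup _) ⊓ Subgroup.prod ⊤ ⊥) ≠ ⊥ := by
    intro z hz hz1 hz2 hbot
    apply hz1
    have : z ∈ B ⊓ ((X : Subgroup _) ⊓ Subgroup.prod ⊤ ⊥) :=
      ⟨hz, hBX hz, Subgroup.mem_prod.2 ⟨Subgroup.mem_top _, Subgroup.mem_bot.2 hz2⟩⟩
    rw [hbot] at this
    exact Subgroup.mem_bot.1 this
  have second : ∀ z ∈ B, z ≠ 1 → z.1 = 1 → B ⊓ ((X : Subgroup _) ⊓ Subgroup.prod ⊥ ⊤) ≠ ⊥ := by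
    intro z hz hz1 hz2 hbot
    apply hz1
    have : z ∈ B ⊓ ((X : Subgroup _) ⊓ Subgroup.prod ⊥ ⊤) :=
      ⟨hz, hBX hz, Subgroup.mem_prod.2 ⟨Subgroup.mem_bot.2 hz2, Subgroup.mem_top _⟩⟩
    rw [hbot] at this
    exact Subgroup.mem_bot.1 this
  have hb := brute x y
  simp only [chk, Bool.or_eq_true, decide_eq_true_eq] at hb
  rcases hb with (((((((((((h | h) | h) | h) | h) | h) | h) | h) | h) | h) | h) | h)
  · exact absurd hxx h
  · exact absurd h hx1
  · exact absurd hyy h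
  · exact absurd h hy1
  · exact absurd h hyx
  · exact Or.inl (first x hxB hx1 h)
  · exact Or.inl (first y hyB hy1 h)
  · exact Or.inl (first _ (B.mul_mem hxB hyB) hxy1 h)
  · exact Or.inr (Or.inl (second x hxB hx1 h))
  · exact Or.inr (Or.inl (second y hyB hy1 h))
  · exact Or.inr (Or.inl (second _ (B.mul_mem hxB hyB) hxy1 h))
  · right; right
    obtain ⟨g, hg⟩ := exists_conj Q
    have fin : ∀ r0 : A4 × A4, r0 ∈ Q0 → r0.1 ≠ 1 → r0.2 ≠ 1 → r0 ^ 3 = 1 →
        good (g * r0 * g⁻¹) x y = true →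
        ∃ R : Subgroup (A4 × A4), R ≤ (Q : Subgroup _) ∧ Nat.card ↥R = 3 ∧
        R ≠ (Q : Subgroup _) ⊓ Subgroup.prod ⊤ ⊥ ∧ R ≠ (Q : Subgroup _) ⊓ Subgroup.prod ⊥ ⊤ ∧
        R ≤ Subgroup.normalizer (B : Set _) := by
      intro r0 hr0 h1 h2 h3 hgood
      set r := g * r0 * g⁻¹ with hr
      have hr3 : r ^ 3 = 1 := by rw [hr, conj_pow, h3]; group
      have hr1 : r.1 ≠ 1 := by
        intro h
        apply h1
        have : g.1 * r0.1 * g.1⁻¹ = 1 := h
        have h5 : r0.1 = g.1⁻¹ * (g.1 * r0.1 * g.1⁻¹) * g.1 := by group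
        rw [h5, this]; group
      have hr2 : r.2 ≠ 1 := by
        intro h
        apply h2
        have : g.2 * r0.2 * g.2⁻¹ = 1 := h
        have h5 : r0.2 = g.2⁻¹ * (g.2 * r0.2 * g.2⁻¹) * g.2 := by group
        rw [h5, this]; group
      have hrne : r ≠ 1 := fun h => hr1 (by rw [h]; rfl)
      refine ⟨Subgroup.zpowers r, (Subgroup.zpowers_le).2 (hg r0 hr0), ?_, ?_, ?_, ?_⟩
      · rw [Nat.card_zpowers]
        exact orderOf_eq_prime hr3 hrne
      · intro h
        have : r ∈ (Q : Subgroup _) ⊓ Subgroup.prod (⊤ : Subgroup A4) (⊥ : Subgroup A4) := by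
          rw [← h]; exact Subgroup.mem_zpowers r
        exact hr2 (Subgroup.mem_bot.1 (Subgroup.mem_prod.1 this.2).2)
      · intro h
        have : r ∈ (Q : Subgroup _) ⊓ Subgroup.prod (⊥ : Subgroup A4) (⊤ : Subgroup A4) := by
          rw [← h]; exact Subgroup.mem_zpowers r
        exact hr1 (Subgroup.mem_bot.1 (Subgroup.mem_prod.1 this.2).1)
      · rw [Subgroup.zpowers_le]
        simp only [good, Bool.and_eq_true, Bool.or_eq_true, decide_eq_true_eq] at hgood
        have hcx : r * x * r⁻¹ ∈ B := by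
          rcases hgood.1 with (h | h) | h <;> rw [h]
          · exact hxB
          · exact hyB
          · exact B.mul_mem hxB hyB
        have hcy : r * y * r⁻¹ ∈ B := by
          rcases hgood.2 with (h | h) | h <;> rw [h]
          · exact hxB
          · exact hyB
          · exact B.mul_mem hxB hyB
        have hconj : ∀ b ∈ B, r * b * r⁻¹ ∈ B := by
          intro b hb
          rcases hBeq b hb with rfl | rfl | rfl | rfl
          · simp
          · exact hcx
          · exact hcy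
          · have : r * (x * y) * r⁻¹ = (r * x * r⁻¹) * (r * y * r⁻¹) := by group
            rw [this]; exact B.mul_mem hcx hcy
        rw [Subgroup.mem_normalizer_iff]
        intro h
        constructor
        · exact hconj h
        · intro hh
          have h6 := hconj _ (hconj _ hh)
          have h7 : r * (r * (r * h * r⁻¹) * r⁻¹) * r⁻¹ = r ^ 3 * h * (r ^ 3)⁻¹ := by
            simp only [pow_succ, pow_zero, one_mul, mul_inv_rev, mul_assoc]
          rw [h7, hr3] at h6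
          simpa using h6
    simp only [A4A4Brute.inner, decide_eq_true_eq, Bool.or_eq_true] at h
    rcases h g with h | h
    · exact fin (c, c) (Subgroup.mem_prod.2 ⟨Subgroup.mem_zpowers c, Subgroup.mem_zpowers c⟩)
        c_ne c_ne (by rw [Prod.pow_mk, c_pow]; rfl) h
    · exact fin (c, c⁻¹) (Subgroup.mem_prod.2 ⟨Subgroup.mem_zpowers c,
        (Subgroup.zpowers c).inv_mem (Subgroup.mem_zpowers c)⟩)
        c_ne (inv_ne_one.2 c_ne) (by rw [Prod.pow_mk, inv_pow, c_pow]; simp) h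

end Cfsg.Agent.Lib.Helper14.A4A4
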