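import Mathlib

/-! Brute-force facts on `A₄ × A₄`. -/

namespace Cfsg.Agent.Lib.Helper14.A4A4Brute

abbrev A4 := ↥(alternatingGroup (Fin 4))
def c : A4 := ⟨Equiv.swap 0 1 * Equiv.swap 1 2, Equiv.Perm.mem_alternatingGroup.2 (by decide)⟩
def good (r x y : A4 × A4) : Bool :=
  (decide (r * x * r⁻¹ = x) || decide (r * x * r⁻¹ = y) || decide (r * x * r⁻¹ = x * y)) &&
  (decide (r * y * r⁻¹ = x) || decide (r * y * r⁻¹ = y) || decide (r * y * r⁻¹ = x * y))
def inner (x y : A4 × A4) : Bool :=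
  decide (∀ g : A4 × A4, (good (g * (c,c) * g⁻¹) x y || good (g * (c,c⁻¹) * g⁻¹) x y) = true)
def chk (x y : A4 × A4) : Bool :=
  decide (x * x ≠ 1) || decide (x = 1) || decide (y * y ≠ 1) || decide (y = 1) || decide (x = y) ||
  decide (x.2 = 1) || decide (y.2 = 1) || decide ((x * y).2 = 1) ||
  decide (x.1 = 1) || decide (y.1 = 1) || decide ((x * y).1 = 1) || inner x y
set_option maxRecDepth 100000 in
theorem brute : ∀ x y : A4 × A4, chk x y = true := by decide +kernel
set_option maxRecDepth 100000 in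
theorem exp6 : ∀ x : A4 × A4, x ^ 6 = 1 := by decide +kernel

end Cfsg.Agent.Lib.Helper14.A4A4Brute
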