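import Mathlib

set_option autoImplicit false

namespace Cfsg.Agent.Lib.Helper14.AltOrd

theorem exists_dvd_of_prime_dvd_lcm {p : ℕ} (hp : p.Prime) (m : Multiset ℕ) (h : p ∣ m.lcm) :
    ∃ a ∈ m, p ∣ a := by
  induction m using Multiset.induction_on with
  | empty =>
    simp at h
    exact absurd h hp.one_lt.ne'
  | cons a s ih =>
    rw [Multiset.lcm_cons] at h
    have h2 : p ∣ a * s.lcm := h.trans (lcm_dvd_mul _ _)
    rcases hp.dvd_mul.1 h2 with h3 | h3
    · exact ⟨a, Multiset.mem_cons_self a s, h3⟩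
    · obtain ⟨b, hb, hpb⟩ := ih h3
      exact ⟨b, Multiset.mem_cons_of_mem hb, hpb⟩

theorem prod_sign (m : Multiset ℕ) :
    (m.map fun n => -(-1 : ℤˣ) ^ n).prod = (-1) ^ (Multiset.card (m.filter Even)) := by
  induction m using Multiset.induction_on with
  | empty => simp
  | cons a s ih =>
    rw [Multiset.map_cons, Multiset.prod_cons, ih]
    by_cases ha : Even a
    · rw [Multiset.filter_cons_of_pos _ ha, Multiset.card_cons, ha.neg_one_pow, pow_succ]
      simp
    · rw [Multiset.filter_cons_of_neg _ ha, (Nat.not_even_iff_odd.1 ha).neg_one_pow]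
      simp

theorem add_le_sum {m : Multiset ℕ} {a b : ℕ} (ha : a ∈ m) (hb : b ∈ m) (hab : a ≠ b) :
    a + b ≤ m.sum := by
  obtain ⟨t, rfl⟩ := Multiset.exists_cons_of_mem ha
  rw [Multiset.sum_cons]
  have hb' : b ∈ t := by
    rcases Multiset.mem_cons.1 hb with h | h
    · exact absurd h.symm hab
    · exact h
  have := Multiset.le_sum_of_mem hb'
  omega

variable {n : ℕ}

theorem mem_range_iff (k : ℕ) :
    (k ∈ Set.range (orderOf : alternatingGroup (Fin n) → ℕ)) ↔
      ∃ σ : Equiv.Perm (Fin n), Even (Multiset.card (σ.cycleType.filter Even)) ∧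
        σ.cycleType.lcm = k := by
  have hs : ∀ σ : Equiv.Perm (Fin n), σ ∈ alternatingGroup (Fin n) ↔
      Even (Multiset.card (σ.cycleType.filter Even)) := by
    intro σ
    rw [Equiv.Perm.mem_alternatingGroup, Equiv.Perm.sign_of_cycleType', prod_sign]
    constructor
    · intro h
      by_contra hc
      rw [(Nat.not_even_iff_odd.1 hc).neg_one_pow] at h
      revert h; decide
    · intro h
      exact h.neg_one_pow
  constructor
  · rintro ⟨σ, rfl⟩
    exact ⟨σ.1, (hs _).1 σ.2, by rw [Equiv.Perm.lcm_cycleType, Subgroup.orderOf_coe]⟩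
  · rintro ⟨σ, h1, h2⟩
    exact ⟨⟨σ, (hs _).2 h1⟩, by rw [Subgroup.orderOf_mk, ← Equiv.Perm.lcm_cycleType, h2]⟩

end Cfsg.Agent.Lib.Helper14.AltOrd
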