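import Mathlib

/-! `A_n` with all proper subgroups of order divisible by `p` being `p`-closed. -/

namespace Cfsg.Agent.Lib.Helper14.AltPClosed

theorem sign_via {α β : Type*} [Fintype α] [DecidableEq α] [Fintype β] [DecidableEq β]
    (ι : α ↪ β) (e : Equiv.Perm α) :
    Equiv.Perm.sign (Equiv.Perm.viaEmbeddingHom ι e) = Equiv.Perm.sign e := by
  rw [Equiv.Perm.viaEmbeddingHom_apply]
  unfold Equiv.Perm.viaEmbedding
  exact @Equiv.Perm.sign_extendDomain _ _ _ _ _ _ _ _ (fun _ => Classical.propDecidable _) _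

/-- the embedding `A_m → A_n`. -/
noncomputable def iota {m n : ℕ} (h : m ≤ n) :
    alternatingGroup (Fin m) →* alternatingGroup (Fin n) :=
  ((Equiv.Perm.viaEmbeddingHom (Fin.castLEEmb h)).comp
    (alternatingGroup (Fin m)).subtype).codRestrict _ (fun x => by
      rw [Equiv.Perm.mem_alternatingGroup, MonoidHom.comp_apply, sign_via]
      exact Equiv.Perm.mem_alternatingGroup.1 x.2)

theorem iota_injective {m n : ℕ} (h : m ≤ n) : Function.Injective (iota h) := by
  intro x y hxy
  have h1 := congrArg Subtype.val hxy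
  exact Subtype.ext (Equiv.Perm.viaEmbeddingHom_injective _ h1)

theorem mem_of_normal_sylow {G : Type*} [Group G] [Finite G] {p : ℕ} [hp : Fact p.Prime]
    (P : Sylow p G) (hP : (P : Subgroup G).Normal) (g : G) (k : ℕ) (hg : g ^ p ^ k = 1) :
    g ∈ (P : Subgroup G) := by
  obtain ⟨j, _, hj⟩ := (Nat.dvd_prime_pow hp.out).1 (orderOf_dvd_of_pow_eq_one hg)
  have hz : IsPGroup p (Subgroup.zpowers g) := IsPGroup.of_card (n := j) (by rw [Nat.card_zpowers, hj])
  obtain ⟨Q, hQ⟩ := hz.exists_le_sylow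
  haveI := Sylow.unique_of_normal P hP
  have : Q = P := Subsingleton.elim _ _
  rw [← this]
  exact hQ (Subgroup.mem_zpowers g)

theorem two_mul_card (m : ℕ) (hm : 2 ≤ m) :
    2 * Nat.card (alternatingGroup (Fin m)) = m.factorial := by
  haveI : Nontrivial (Fin m) := Fin.nontrivial_iff_two_le.2 hm
  rw [Nat.card_eq_fintype_card, two_mul_card_alternatingGroup, Fintype.card_perm, Fintype.card_fin]

theorem main' (m p : ℕ) (hm : 4 ≤ m) [hp : Fact p.Prime] (hp2 : p ≠ 2) (hpm : p ≤ m)
    (h : ∀ H : Subgroup (alternatingGroup (Fin (m + 1))), H ≠ ⊤ → p ∣ Nat.card H →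
      ∀ P : Sylow p H, (P : Subgroup H).Normal) : False := by
  have hinj := iota_injective (Nat.le_succ m)
  set H := (iota (Nat.le_succ m)).range with hH
  let e : alternatingGroup (Fin m) ≃* H := MonoidHom.ofInjective hinj
  have hcard : Nat.card H = Nat.card (alternatingGroup (Fin m)) := (Nat.card_congr e.toEquiv).symm
  have h2 := two_mul_card m (by omega)
  have h2' := two_mul_card (m + 1) (by omega)
  have hnT : H ≠ ⊤ := by
    intro hT
    have h3 : Nat.card H = Nat.card (alternatingGroup (Fin (m + 1))) := by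
      rw [hT, Subgroup.card_top]
    rw [Nat.factorial_succ] at h2'
    have hpos : 0 < m.factorial := Nat.factorial_pos m
    rw [← h3, hcard] at h2'
    rw [h2] at h2'
    nlinarith
  have hdvd : p ∣ Nat.card H := by
    rw [hcard]
    have h3 : p ∣ 2 * Nat.card (alternatingGroup (Fin m)) := by
      rw [h2]; exact Nat.dvd_factorial hp.out.pos hpm
    exact (Nat.Coprime.dvd_mul_left ((Nat.coprime_primes hp.out Nat.prime_two).2 hp2)).1 h3
  obtain ⟨P⟩ : Nonempty (Sylow p H) := inferInstance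
  have hPn := h H hnT hdvd P
  rcases hm.eq_or_lt with rfl | hm5
  · -- `m = 4`, `p = 3`
    have hp3 : p = 3 := by
      have := hp.out.two_le
      have h4 : p ≠ 4 := by
        rintro rfl
        exact absurd hp.out (by norm_num)
      omega
    subst hp3
    let u : alternatingGroup (Fin 4) :=
      ⟨Equiv.swap 0 1 * Equiv.swap 1 2, Equiv.Perm.mem_alternatingGroup.2 (by decide)⟩
    let v : alternatingGroup (Fin 4) :=
      ⟨Equiv.swap 0 1 * Equiv.swap 1 3, Equiv.Perm.mem_alternatingGroup.2 (by decide)⟩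
    have hu : u ^ 3 ^ 1 = 1 := Subtype.ext (by decide)
    have hv : v ^ 3 ^ 1 = 1 := Subtype.ext (by decide)
    have huv : (u * v) ^ 2 = 1 := Subtype.ext (by decide)
    have huv1 : u * v ≠ 1 := fun h => absurd (congrArg Subtype.val h) (by decide)
    have hU := mem_of_normal_sylow P hPn (e u) 1 (by rw [← map_pow, hu, map_one])
    have hV := mem_of_normal_sylow P hPn (e v) 1 (by rw [← map_pow, hv, map_one])
    have hUV := mul_mem hU hV
    obtain ⟨k, hk⟩ := P.2 ⟨_, hUV⟩
    have hk' : (e u * e v) ^ 3 ^ k = 1 := congrArg Subtype.val hk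
    rw [← map_mul, ← map_pow] at hk'
    have hk2 : (u * v) ^ 3 ^ k = 1 := e.injective (by rw [hk', map_one])
    have h1 := orderOf_dvd_of_pow_eq_one hk2
    have h2 := orderOf_dvd_of_pow_eq_one huv
    have h3 : orderOf (u * v) ∣ Nat.gcd (3 ^ k) 2 := Nat.dvd_gcd h1 h2
    have h4 : Nat.gcd (3 ^ k) 2 = 1 := Nat.Coprime.pow_left k (by norm_num)
    rw [h4, Nat.dvd_one, orderOf_eq_one_iff] at h3
    exact huv1 h3
  · haveI : IsSimpleGroup (alternatingGroup (Fin m)) :=
      alternatingGroup.isSimpleGroup (by simp; omega)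
    haveI : IsSimpleGroup H := e.symm.isSimpleGroup
    rcases hPn.eq_bot_or_eq_top with hb | ht
    · exact P.ne_bot_of_dvd_card hdvd hb
    · obtain ⟨k, hk⟩ := IsPGroup.iff_card.1 P.2
      have h3 : Nat.card (P : Subgroup H) = Nat.card H := by rw [ht, Subgroup.card_top]
      rw [h3, hcard] at hk
      have h4 : 4 ∣ m.factorial := Nat.dvd_factorial (by norm_num) hm
      rw [← h2, hk] at h4
      have h5 : 2 ∣ p ^ k := by omega
      have h6 := Nat.Prime.dvd_of_dvd_pow Nat.prime_two h5
      exact hp2 ((Nat.prime_dvd_prime_iff_eq Nat.prime_two hp.out).1 h6).symm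

theorem main (n p : ℕ) (hn : 5 ≤ n) [hp : Fact p.Prime] (hp2 : p ≠ 2) (hpn : p ≤ n)
    (h : ∀ H : Subgroup (alternatingGroup (Fin n)), H ≠ ⊤ → p ∣ Nat.card H →
      ∀ P : Sylow p H, (P : Subgroup H).Normal) : n = p := by
  by_contra hne
  obtain ⟨m, rfl⟩ : ∃ m, n = m + 1 := ⟨n - 1, by omega⟩
  exact main' m p (by omega) hp2 (by omega) h

end Cfsg.Agent.Lib.Helper14.AltPClosed
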