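import Mathlib

/-! Invariant `k`-subsets of permutations of prime order. -/

namespace Cfsg.Agent.Lib.Helper14.Elusive

section
variable {α : Type*} [Fintype α] [DecidableEq α]

/-- construct invariant subsets -/
theorem exists_invariant (σ : Equiv.Perm α) (r j : ℕ) (hct : σ.cycleType = Multiset.replicate j r)
    (a b : ℕ) (ha : a ≤ j) (hb : b + r * j ≤ Fintype.card α) :
    ∃ s : Finset α, s.card = r * a + b ∧ s.image σ = s := by
  have hcard : σ.cycleFactorsFinset.card = j := by
    have := congrArg Multiset.card hct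
    rw [Equiv.Perm.cycleType_def, Multiset.card_map, Multiset.card_replicate] at this
    exact this
  have hsupp : ∀ c ∈ σ.cycleFactorsFinset, c.support.card = r := by
    intro c hc
    have : c.support.card ∈ σ.cycleType := by
      rw [Equiv.Perm.cycleType_def]
      exact Multiset.mem_map.2 ⟨c, hc, rfl⟩
    rw [hct] at this
    exact Multiset.eq_of_mem_replicate this
  have hsum : σ.support.card = r * j := by
    rw [← Equiv.Perm.sum_cycleType, hct, Multiset.sum_replicate, smul_eq_mul, mul_comm]
  obtain ⟨t, ht, hta⟩ := Finset.exists_subset_card_eq (s := σ.cycleFactorsFinset) (n := a)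
    (by rw [hcard]; exact ha)
  obtain ⟨u, hu, hub⟩ := Finset.exists_subset_card_eq (s := σ.supportᶜ) (n := b)
    (by rw [Finset.card_compl, hsum]; omega)
  set w := t.biUnion Equiv.Perm.support with hw
  have hwcard : w.card = r * a := by
    rw [hw, Finset.card_biUnion]
    · rw [Finset.sum_congr rfl (fun c hc => hsupp c (ht hc)), Finset.sum_const, hta, smul_eq_mul,
        mul_comm]
    · intro c hc d hd hcd
      exact (σ.cycleFactorsFinset_pairwise_disjoint (ht hc) (ht hd) hcd).disjoint_support
  have hwsub : w ⊆ σ.support := by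
    intro x hx
    obtain ⟨c, hc, hxc⟩ := Finset.mem_biUnion.1 hx
    exact Equiv.Perm.mem_cycleFactorsFinset_support_le (ht hc) hxc
  have hdisj : Disjoint w u := by
    rw [Finset.disjoint_left]
    intro x hx hxu
    exact (Finset.mem_compl.1 (hu hxu)) (hwsub hx)
  refine ⟨w ∪ u, by rw [Finset.card_union_of_disjoint hdisj, hwcard, hub], ?_⟩
  apply Finset.eq_of_subset_of_card_le
  · intro y hy
    obtain ⟨x, hx, rfl⟩ := Finset.mem_image.1 hy
    rcases Finset.mem_union.1 hx with hx | hx
    · obtain ⟨c, hc, hxc⟩ := Finset.mem_biUnion.1 hx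
      apply Finset.mem_union_left
      refine Finset.mem_biUnion.2 ⟨c, hc, ?_⟩
      rw [← (Equiv.Perm.mem_cycleFactorsFinset_iff.1 (ht hc)).2 x hxc]
      exact Equiv.Perm.apply_mem_support.2 hxc
    · apply Finset.mem_union_right
      have : σ x = x := by
        have := Finset.mem_compl.1 (hu hx)
        rwa [Equiv.Perm.mem_support, not_not] at this
      rw [this]; exact hx
  · rw [Finset.card_image_of_injective _ σ.injective]

theorem card_modEq (σ : Equiv.Perm α) (r : ℕ) [Fact r.Prime] (hσ : σ ^ r = 1) (s : Finset α)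
    (hs : s.image σ = s) :
    ∃ b, b ≤ (σ.supportᶜ).card ∧ s.card ≡ b [MOD r] := by
  have hmem : ∀ x, σ x ∈ s ↔ x ∈ s := by
    intro x
    constructor
    · intro h
      rw [← hs] at h
      obtain ⟨y, hy, hyx⟩ := Finset.mem_image.1 h
      rwa [← σ.injective hyx]
    · intro h; rw [← hs]; exact Finset.mem_image_of_mem _ h
  let τ : Equiv.Perm {x // x ∈ s} := σ.subtypePerm hmem
  have hτ : τ ^ r ^ 1 = 1 := by
    rw [pow_one]
    ext x
    simp [τ, Equiv.Perm.subtypePerm_pow, hσ]
  have h := Equiv.Perm.card_compl_support_modEq hτ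
  refine ⟨τ.supportᶜ.card, ?_, ?_⟩
  · apply Finset.card_le_card_of_injOn Subtype.val
    · intro x hx
      have hx' : x ∉ τ.support := Finset.mem_compl.1 hx
      rw [Equiv.Perm.mem_support, not_not] at hx'
      have : σ x.1 = x.1 := congrArg Subtype.val hx'
      simp only [Finset.coe_compl, Set.mem_compl_iff, Finset.mem_coe, Equiv.Perm.mem_support, not_not]
      exact this
    · exact Subtype.val_injective.injOn
  · have h2 : Fintype.card {x // x ∈ s} = s.card := Fintype.card_coe s
    rw [h2] at h
    exact h.symm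

end

theorem iff_mod (n k r : ℕ) [hr : Fact r.Prime] (hrn : r ≤ n) (hkn : k ≤ n) :
    (∀ σ : Equiv.Perm (Fin n), orderOf σ = r → ∃ s : Finset (Fin n), s.card = k ∧ s.image σ = s) ↔
      k % r ≤ n % r := by
  constructor
  · intro h
    obtain ⟨σ, hσ⟩ := (Equiv.Perm.exists_with_cycleType_iff (Fin n)
      (m := Multiset.replicate (n / r) r)).2
      ⟨by simp [Nat.div_mul_le_self], fun a ha => by
        rw [Multiset.eq_of_mem_replicate ha]; exact hr.out.two_le⟩
    have hord : orderOf σ = r := by
      rw [← Equiv.Perm.lcm_cycleType, hσ]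
      obtain ⟨j, hj⟩ : ∃ j, n / r = j + 1 :=
        ⟨n / r - 1, by have := Nat.div_pos hrn hr.out.pos; omega⟩
      rw [hj]
      clear hj
      induction j with
      | zero => simp
      | succ j ih => rw [Multiset.replicate_succ, Multiset.lcm_cons, ih]; simp
    obtain ⟨s, hsk, hs⟩ := h σ hord
    obtain ⟨b, hb, hmod⟩ := card_modEq σ r (by rw [← hord]; exact pow_orderOf_eq_one σ) s hs
    have hsupp : σ.support.card = r * (n / r) := by
      rw [← Equiv.Perm.sum_cycleType, hσ, Multiset.sum_replicate, smul_eq_mul, mul_comm]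
    have hb' : b ≤ n % r := by
      rw [Finset.card_compl, hsupp, Fintype.card_fin] at hb
      have := Nat.div_add_mod n r
      omega
    have hlt : n % r < r := Nat.mod_lt _ hr.out.pos
    rw [hsk] at hmod
    have h3 : k % r = b := by
      have h4 : k % r = b % r := hmod
      rw [h4]
      exact Nat.mod_eq_of_lt (by omega)
    omega
  · intro h σ hσ
    obtain ⟨j', hj⟩ := Equiv.Perm.cycleType_prime_order (σ := σ) (by rw [hσ]; exact hr.out)
    rw [hσ] at hj
    generalize j' + 1 = j at hj
    have hsupp : σ.support.card = r * j := by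
      rw [← Equiv.Perm.sum_cycleType, hj, Multiset.sum_replicate, smul_eq_mul, mul_comm]
    have hle : r * j ≤ n := by
      rw [← hsupp]
      calc σ.support.card ≤ Fintype.card (Fin n) := Finset.card_le_univ _
        _ = n := Fintype.card_fin n
    by_cases hc : k / r ≤ j
    · obtain ⟨f, hf⟩ : ∃ f, n = r * j + f := ⟨n - r * j, by omega⟩
      have h5 : n % r = f % r := by rw [hf, Nat.mul_add_mod]
      have h6 : f % r ≤ f := Nat.mod_le _ _
      obtain ⟨s, hs1, hs2⟩ := exists_invariant σ r j hj (k / r) (k % r) hc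
        (by rw [Fintype.card_fin]; omega)
      exact ⟨s, by rw [hs1]; exact Nat.div_add_mod k r, hs2⟩
    · have h7 : r * j ≤ k := by
        have h8 : j ≤ k / r := by omega
        calc r * j ≤ r * (k / r) := Nat.mul_le_mul_left _ h8
          _ ≤ k := Nat.mul_div_le k r
      obtain ⟨s, hs1, hs2⟩ := exists_invariant σ r j hj j (k - r * j) le_rfl
        (by rw [Fintype.card_fin]; omega)
      exact ⟨s, by rw [hs1]; omega, hs2⟩

theorem choose_dvd_factorial (n k : ℕ) (h : k ≤ n) : n.choose k ∣ n.factorial :=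
  ⟨k.factorial * (n - k).factorial, by
    rw [← mul_assoc]; exact (Nat.choose_mul_factorial_mul_factorial h).symm⟩

theorem main (n k : ℕ) (hk : 1 ≤ k) (hkn : 2 * k < n) (r : ℕ) (hr : r.Prime)
    (hrd : r ∣ Nat.choose n k) :
    (r ≠ 2 → ((∀ σ : Equiv.Perm (Fin n), orderOf σ = r →
        ∃ s : Finset (Fin n), s.card = k ∧ s.image σ = s) ↔ (r ≤ k ∧ k % r ≤ n % r))) ∧
    (r = 2 → ((∀ σ : Equiv.Perm (Fin n), orderOf σ = 2 →
        ∃ s : Finset (Fin n), s.card = k ∧ s.image σ = s) ↔ (Even k ∨ Odd n))) := by
  haveI : Fact r.Prime := ⟨hr⟩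
  have hrn : r ≤ n := (hr.dvd_factorial).1 (hrd.trans (choose_dvd_factorial n k (by omega)))
  have key := iff_mod n k r hrn (by omega)
  constructor
  · intro _
    rw [key]
    constructor
    · intro h
      refine ⟨?_, h⟩
      by_contra hlt
      push Not at hlt
      have hL := Choose.choose_modEq_choose_mod_mul_choose_div_nat (n := n) (k := k) (p := r)
      rw [Nat.mod_eq_of_lt hlt, Nat.div_eq_of_lt hlt, Nat.choose_zero_right, mul_one] at hL
      have h2 : r ∣ (n % r).choose k :=
        (Nat.modEq_zero_iff_dvd.1 (hL.symm.trans (Nat.modEq_zero_iff_dvd.2 hrd)))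
      rw [Nat.mod_eq_of_lt hlt] at h
      have h3 := (hr.dvd_factorial).1 (h2.trans (choose_dvd_factorial (n % r) k h))
      have h4 := Nat.mod_lt n hr.pos
      omega
    · exact fun h => h.2
  · rintro rfl
    rw [key, Nat.even_iff, Nat.odd_iff]
    omega

end Cfsg.Agent.Lib.Helper14.Elusive
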