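import Cfsg.Agent.Lib.Helper14.FXSemi

/-! Matrices as `F[X]`-modules. -/

set_option autoImplicit false

namespace Cfsg.Agent.Lib.Helper14

open Polynomial Module

universe u v

variable {F : Type u} [Field F] {n : Type v} [Fintype n] [DecidableEq n]

/-- the `F[X]`-module attached to a matrix -/
abbrev MA (A : Matrix n n F) := Module.AEval' (Matrix.toLin' A)

instance finite_MA (A : Matrix n n F) : FiniteDimensional F (MA A) :=
  Module.Finite.equiv (Module.AEval'.of (Matrix.toLin' A))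

theorem cp_MA (A : Matrix n n F) : cp F (MA A) = A.charpoly := by
  unfold cp
  have h1 : Xact F (MA A) = (Module.AEval'.of (Matrix.toLin' A)).conj (Matrix.toLin' A) := by
    ext m
    obtain ⟨v, rfl⟩ := (Module.AEval'.of (Matrix.toLin' A)).surjective m
    rw [Xact_apply, Module.AEval'.X_smul_of, LinearEquiv.conj_apply]
    simp
  rw [h1, LinearEquiv.charpoly_conj, ← LinearMap.charpoly_toMatrix (Matrix.toLin' A) (Pi.basisFun F n)]
  congr 1
  rw [LinearMap.toMatrix_eq_toMatrix', LinearMap.toMatrix'_toLin']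

theorem conj_of_iso {A B : Matrix n n F} (φ : MA A ≃ₗ[F[X]] MA B) :
    ∃ P : Matrix n n F, IsUnit P.det ∧ P * A = B * P := by
  let e : (n → F) ≃ₗ[F] (n → F) := (Module.AEval'.of (Matrix.toLin' A)).trans
    ((φ.restrictScalars F).trans (Module.AEval'.of (Matrix.toLin' B)).symm)
  refine ⟨LinearMap.toMatrix' (e : (n → F) →ₗ[F] (n → F)), ?_, ?_⟩
  · rw [LinearMap.det_toMatrix']
    exact e.isUnit_det'
  · apply Matrix.toLin'.injective
    apply LinearMap.ext
    intro x
    simp only [Matrix.toLin'_mul, Matrix.toLin'_toMatrix', LinearMap.comp_apply, LinearEquiv.coe_coe]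
    change (Module.AEval'.of (Matrix.toLin' B)).symm (φ (Module.AEval'.of (Matrix.toLin' A) (Matrix.toLin' A x)))
      = Matrix.toLin' B ((Module.AEval'.of (Matrix.toLin' B)).symm (φ (Module.AEval'.of (Matrix.toLin' A) x)))
    rw [← Module.AEval'.X_smul_of, map_smul]
    obtain ⟨y, hy⟩ := (Module.AEval'.of (Matrix.toLin' B)).surjective (φ (Module.AEval'.of (Matrix.toLin' A) x))
    rw [← hy, Module.AEval'.X_smul_of]
    simp

theorem commuting_of_endo {A : Matrix n n F} (z : MA A →ₗ[F[X]] MA A) :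
    ∃ Z : Matrix n n F, Z * A = A * Z ∧ Z.det = LinearMap.det (z.restrictScalars F) := by
  let o := Module.AEval'.of (Matrix.toLin' A)
  let e : (n → F) →ₗ[F] (n → F) := (o.symm : MA A →ₗ[F] (n → F)) ∘ₗ (z.restrictScalars F) ∘ₗ
    (o.symm.symm : (n → F) →ₗ[F] MA A)
  refine ⟨LinearMap.toMatrix' e, ?_, ?_⟩
  · apply Matrix.toLin'.injective
    apply LinearMap.ext
    intro x
    simp only [Matrix.toLin'_mul, Matrix.toLin'_toMatrix', LinearMap.comp_apply]
    change o.symm (z (o (Matrix.toLin' A x))) = Matrix.toLin' A (o.symm (z (o x)))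
    rw [← Module.AEval'.X_smul_of, map_smul]
    obtain ⟨y, hy⟩ := o.surjective (z (o x))
    rw [← hy, Module.AEval'.X_smul_of]
    exact (o.symm_apply_apply _).trans (by rw [o.symm_apply_apply])
  · rw [LinearMap.det_toMatrix', LinearMap.det_conj]

theorem semisimple_MA_of_pow_eq_one {A : Matrix n n F} {m : ℕ} (hm : (m : F) ≠ 0) (hA : A ^ m = 1) :
    IsSemisimpleModule F[X] (MA A) := by
  have h1 : Squarefree (X ^ m - 1 : F[X]) :=
    ((Polynomial.X_pow_sub_one_separable_iff).2 hm).squarefree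
  have h2 : aeval (Matrix.toLin' A) (X ^ m - 1 : F[X]) = 0 := by
    simp only [map_sub, map_pow, aeval_X, map_one]
    rw [← Matrix.toLin'_pow, hA, Matrix.toLin'_one]
    exact sub_self _
  exact Module.End.isSemisimple_of_squarefree_aeval_eq_zero h1 h2

theorem exists_commuting_det [Finite F] [Nonempty n] {A : Matrix n n F} {m : ℕ} (hm : (m : F) ≠ 0)
    (hA : A ^ m = 1) (d : F) : ∃ Z : Matrix n n F, Z * A = A * Z ∧ Z.det = d := by
  haveI := semisimple_MA_of_pow_eq_one hm hA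
  haveI : Nontrivial (MA A) := (Module.AEval'.of (Matrix.toLin' A)).symm.toEquiv.nontrivial
  obtain ⟨z, hz⟩ := exists_endo_det (MA A) d
  obtain ⟨Z, hZ1, hZ2⟩ := commuting_of_endo z
  exact ⟨Z, hZ1, hZ2.trans hz⟩

theorem exists_conj_of_charpoly_eq {A B : Matrix n n F} {m m' : ℕ} (hm : (m : F) ≠ 0)
    (hA : A ^ m = 1) (hm' : (m' : F) ≠ 0) (hB : B ^ m' = 1) (hc : A.charpoly = B.charpoly) :
    ∃ P : Matrix n n F, IsUnit P.det ∧ P * A = B * P := by
  haveI := semisimple_MA_of_pow_eq_one hm hA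
  haveI := semisimple_MA_of_pow_eq_one hm' hB
  obtain ⟨φ⟩ := iso_of_cp_eq _ (MA A) (MA B) rfl (by rw [cp_MA, cp_MA, hc])
  exact conj_of_iso φ

theorem exists_det_one_conj [Finite F] {A B : Matrix n n F} {m m' : ℕ} (hm : (m : F) ≠ 0)
    (hA : A ^ m = 1) (hm' : (m' : F) ≠ 0) (hB : B ^ m' = 1) (hc : A.charpoly = B.charpoly) :
    ∃ P : Matrix n n F, P.det = 1 ∧ P * A = B * P := by
  obtain ⟨P, hP, hPA⟩ := exists_conj_of_charpoly_eq hm hA hm' hB hc
  rcases isEmpty_or_nonempty n with hn | hn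
  · exact ⟨P, Matrix.det_isEmpty, hPA⟩
  · obtain ⟨Z, hZ1, hZ2⟩ := exists_commuting_det hm hA (P.det)⁻¹
    refine ⟨P * Z, ?_, ?_⟩
    · rw [Matrix.det_mul, hZ2, mul_inv_cancel₀ hP.ne_zero]
    · rw [mul_assoc, hZ1, ← mul_assoc, hPA, mul_assoc]

end Cfsg.Agent.Lib.Helper14
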