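import Mathlib

/-! Semisimple `F[X]`-modules of finite dimension: classification by the characteristic polynomial. -/

set_option autoImplicit false

namespace Cfsg.Agent.Lib.Helper14

open Polynomial Module

universe u v w

variable {F : Type u} [Field F]

/-- The quotient `F[X]/(f)`. -/
abbrev Kq (f : F[X]) := F[X] ⧸ Ideal.span {f}

/-- action of `X` as an `F`-linear map -/
noncomputable def Xact (F : Type u) [Field F] (M : Type v) [AddCommGroup M] [Module F[X] M] [Module F M]
    [IsScalarTower F F[X] M] : M →ₗ[F] M where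
  toFun m := (X : F[X]) • m
  map_add' := smul_add _
  map_smul' c m := by
    simp only [RingHom.id_apply]
    exact smul_comm _ _ _

@[simp] theorem Xact_apply (M : Type v) [AddCommGroup M] [Module F[X] M] [Module F M]
    [IsScalarTower F F[X] M] (m : M) : Xact F M m = (X : F[X]) • m := rfl

/-- the characteristic polynomial of the action of `X` -/
noncomputable def cp (F : Type u) [Field F] (M : Type v) [AddCommGroup M] [Module F[X] M] [Module F M]
    [IsScalarTower F F[X] M] [FiniteDimensional F M] : F[X] := (Xact F M).charpoly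

theorem finite_Kq {f : F[X]} (hf : f ≠ 0) : Module.Finite F (Kq f) :=
  (AdjoinRoot.powerBasis hf).finite

theorem finite_submodule {M : Type v} [AddCommGroup M] [Module F[X] M] [Module F M]
    [IsScalarTower F F[X] M] [FiniteDimensional F M] (N : Submodule F[X] M) : Module.Finite F N :=
  Module.Finite.of_injective (N.subtype.restrictScalars F) Subtype.val_injective

section
variable {M : Type v} [AddCommGroup M] [Module F[X] M] [Module F M] [IsScalarTower F F[X] M]
  [FiniteDimensional F M]
  {N : Type w} [AddCommGroup N] [Module F[X] N] [Module F N] [IsScalarTower F F[X] N]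
  [FiniteDimensional F N]

theorem cp_congr (e : M ≃ₗ[F[X]] N) : cp F M = cp F N := by
  unfold cp
  rw [← LinearEquiv.charpoly_conj (e.restrictScalars F) (Xact F M)]
  congr 1
  ext n
  simp [LinearEquiv.conj_apply]

theorem cp_prod : cp F (M × N) = cp F M * cp F N := by
  unfold cp
  rw [← LinearMap.charpoly_prodMap]
  congr 1

theorem cp_monic : (cp F M).Monic := LinearMap.charpoly_monic _

theorem cp_natDegree : (cp F M).natDegree = finrank F M := LinearMap.charpoly_natDegree _

end

theorem C_smul_eq {M : Type v} [AddCommGroup M] [Module F[X] M] [Module F M]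
    [IsScalarTower F F[X] M] (a : F) (m : M) : (C a : F[X]) • m = a • m := by
  rw [← mul_one (C a), ← smul_eq_C_mul, smul_assoc, one_smul]

theorem Xact_pow_apply {M : Type v} [AddCommGroup M] [Module F[X] M] [Module F M]
    [IsScalarTower F F[X] M] (n : ℕ) (m : M) : (Xact F M ^ n) m = (X ^ n : F[X]) • m := by
  induction n generalizing m with
  | zero => simp
  | succ n ih => rw [pow_succ, Module.End.mul_apply, ih, Xact_apply, smul_smul, pow_succ]

theorem aeval_Xact {M : Type v} [AddCommGroup M] [Module F[X] M] [Module F M]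
    [IsScalarTower F F[X] M] (p : F[X]) (m : M) : aeval (Xact F M) p m = p • m := by
  induction p using Polynomial.induction_on' with
  | add p q hp hq => rw [map_add, LinearMap.add_apply, hp, hq, add_smul]
  | monomial n a =>
    rw [aeval_monomial, ← C_mul_X_pow_eq_monomial, mul_smul, C_smul_eq, Module.End.mul_apply,
      Xact_pow_apply]
    rfl

theorem cp_Kq {f : F[X]} (hf : f.Monic) [FiniteDimensional F (Kq f)] : cp F (Kq f) = f := by
  have h1 : aeval (Xact F (Kq f)) (cp F (Kq f)) = 0 := LinearMap.aeval_self_charpoly _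
  have h2 := aeval_Xact (cp F (Kq f)) (Ideal.Quotient.mk (Ideal.span {f}) 1 : Kq f)
  rw [h1, LinearMap.zero_apply] at h2
  have h3 : (Ideal.Quotient.mk (Ideal.span {f}) (cp F (Kq f)) : Kq f) = 0 := by
    rw [h2]
    have : cp F (Kq f) • (Ideal.Quotient.mk (Ideal.span {f}) 1 : Kq f)
        = Ideal.Quotient.mk (Ideal.span {f}) (cp F (Kq f) • 1) := rfl
    rw [this, smul_eq_mul, mul_one]
  rw [Ideal.Quotient.eq_zero_iff_mem, Ideal.mem_span_singleton] at h3
  apply Polynomial.eq_of_monic_of_dvd_of_natDegree_le hf cp_monic h3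
  rw [cp_natDegree, finrank_quotient_span_eq_natDegree]

theorem exists_monic_irreducible_span (I : Ideal F[X]) (hI : I.IsMaximal) :
    ∃ f : F[X], f.Monic ∧ Irreducible f ∧ I = Ideal.span {f} := by
  have hp : I.IsPrincipal := IsPrincipalIdealRing.principal I
  obtain ⟨g, hg⟩ := hp
  have hg' : I = Ideal.span {g} := hg
  have hI0 : I ≠ ⊥ := Ring.ne_bot_of_isMaximal_of_not_isField hI (Polynomial.not_isField F)
  have hg0 : g ≠ 0 := by
    rintro rfl
    apply hI0
    rw [hg']; simp
  have hlc : g.leadingCoeff⁻¹ ≠ 0 := inv_ne_zero (Polynomial.leadingCoeff_ne_zero.mpr hg0)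
  have hassoc : Associated g (g * C g.leadingCoeff⁻¹) :=
    associated_mul_unit_right g _ (Polynomial.isUnit_C.2 (isUnit_iff_ne_zero.2 hlc))
  refine ⟨g * C g.leadingCoeff⁻¹, Polynomial.monic_mul_leadingCoeff_inv hg0, ?_, ?_⟩
  · have h1 : (Ideal.span {g}).IsPrime := hg' ▸ hI.isPrime
    have h2 : Prime g := (Ideal.span_singleton_prime hg0).1 h1
    exact hassoc.irreducible h2.irreducible
  · rw [hg']
    exact Ideal.span_singleton_eq_span_singleton.2 hassoc

theorem exists_split (M : Type v) [AddCommGroup M] [Module F[X] M] [IsSemisimpleModule F[X] M]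
    [Nontrivial M] : ∃ (f : F[X]) (M' : Submodule F[X] M), f.Monic ∧ Irreducible f ∧
      Nonempty (M ≃ₗ[F[X]] (Kq f × M')) := by
  obtain ⟨W, hW⟩ := IsSemisimpleModule.exists_simple_submodule F[X] M
  obtain ⟨W', hc⟩ := exists_isCompl W
  obtain ⟨I, hI, ⟨t⟩⟩ := isSimpleModule_iff_quot_maximal.1 hW
  obtain ⟨f, hf1, hf2, rfl⟩ := exists_monic_irreducible_span I hI
  exact ⟨f, W', hf1, hf2,
    ⟨(Submodule.prodEquivOfIsCompl W W' hc).symm.trans (t.prodCongr (LinearEquiv.refl _ _))⟩⟩

theorem split_of_embedding {M : Type v} [AddCommGroup M] [Module F[X] M] [IsSemisimpleModule F[X] M]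
    {f : F[X]} (j : Kq f →ₗ[F[X]] M) (hj : Function.Injective j) :
    ∃ M' : Submodule F[X] M, Nonempty (M ≃ₗ[F[X]] (Kq f × M')) := by
  obtain ⟨W', hc⟩ := exists_isCompl (LinearMap.range j)
  exact ⟨W', ⟨(Submodule.prodEquivOfIsCompl _ W' hc).symm.trans
    ((LinearEquiv.ofInjective j hj).symm.prodCongr (LinearEquiv.refl _ _))⟩⟩

theorem exists_embedding_of_dvd (d : ℕ) : ∀ (M : Type v) [AddCommGroup M] [Module F[X] M] [Module F M]
    [IsScalarTower F F[X] M] [FiniteDimensional F M] [IsSemisimpleModule F[X] M] (f : F[X]),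
    finrank F M = d → f.Monic → Irreducible f → f ∣ cp F M →
    ∃ j : Kq f →ₗ[F[X]] M, Function.Injective j := by
  induction d using Nat.strong_induction_on with
  | _ d ih =>
    intro M _ _ _ _ _ _ f hd hf1 hf2 hdvd
    by_cases hM : Subsingleton M
    · exfalso
      have h0 : finrank F M = 0 := finrank_zero_of_subsingleton
      have h1 : cp F M = 1 := by
        apply Polynomial.eq_one_of_monic_natDegree_zero cp_monic
        rw [cp_natDegree, h0]
      rw [h1] at hdvd
      exact hf2.not_isUnit (isUnit_of_dvd_one hdvd)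
    · rw [not_subsingleton_iff_nontrivial] at hM
      obtain ⟨g, M', hg1, hg2, ⟨e⟩⟩ := exists_split (F := F) M
      haveI := finite_Kq hg1.ne_zero
      haveI := finite_submodule M'
      have hcp : cp F M = g * cp F M' := by
        rw [cp_congr e, cp_prod, cp_Kq hg1]
      rw [hcp] at hdvd
      rcases hf2.prime.dvd_or_dvd hdvd with h | h
      · have hfg : f = g := Polynomial.eq_of_monic_of_associated hf1 hg1
          (hf2.associated_of_dvd hg2 h)
        subst hfg
        refine ⟨e.symm.toLinearMap.comp (LinearMap.inl _ _ _), ?_⟩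
        exact e.symm.injective.comp LinearMap.inl_injective
      · have hlt : finrank F M' < d := by
          have h1 := congrArg Polynomial.natDegree hcp
          rw [Polynomial.natDegree_mul hg1.ne_zero cp_monic.ne_zero, cp_natDegree, cp_natDegree] at h1
          have := hg2.natDegree_pos
          omega
        obtain ⟨j, hj⟩ := ih _ hlt M' f rfl hf1 hf2 h
        refine ⟨e.symm.toLinearMap.comp ((LinearMap.inr _ _ _).comp j), ?_⟩
        exact e.symm.injective.comp (LinearMap.inr_injective.comp hj)

/-- Semisimple `F[X]`-modules of finite dimension with the same characteristic polynomial are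
isomorphic. -/
theorem iso_of_cp_eq (d : ℕ) : ∀ (M : Type v) [AddCommGroup M] [Module F[X] M] [Module F M]
    [IsScalarTower F F[X] M] [FiniteDimensional F M] [IsSemisimpleModule F[X] M]
    (N : Type w) [AddCommGroup N] [Module F[X] N] [Module F N]
    [IsScalarTower F F[X] N] [FiniteDimensional F N] [IsSemisimpleModule F[X] N],
    finrank F M = d → cp F M = cp F N → Nonempty (M ≃ₗ[F[X]] N) := by
  induction d using Nat.strong_induction_on with
  | _ d ih =>
    intro M _ _ _ _ _ _ N _ _ _ _ _ _ hd hcp
    by_cases hM : Subsingleton M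
    · have h0 : finrank F M = 0 := finrank_zero_of_subsingleton
      have h1 : finrank F N = 0 := by rw [← cp_natDegree, ← hcp, cp_natDegree, h0]
      haveI : Subsingleton N := finrank_zero_iff.1 h1
      exact ⟨LinearEquiv.ofSubsingleton M N⟩
    · rw [not_subsingleton_iff_nontrivial] at hM
      obtain ⟨f, M', hf1, hf2, ⟨e⟩⟩ := exists_split (F := F) M
      haveI := finite_Kq hf1.ne_zero
      haveI := finite_submodule M'
      have hcpM : cp F M = f * cp F M' := by
        rw [cp_congr e, cp_prod, cp_Kq hf1]
      obtain ⟨j, hj⟩ := exists_embedding_of_dvd _ N f rfl hf1 hf2 (by rw [← hcp, hcpM]; exact dvd_mul_right _ _)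
      obtain ⟨N', ⟨e'⟩⟩ := split_of_embedding j hj
      haveI := finite_submodule N'
      have hcpN : cp F N = f * cp F N' := by
        rw [cp_congr e', cp_prod, cp_Kq hf1]
      have hcp' : cp F M' = cp F N' := by
        rw [hcpM, hcpN] at hcp
        exact mul_left_cancel₀ hf1.ne_zero hcp
      have hlt : finrank F M' < d := by
        have h1 := congrArg Polynomial.natDegree hcpM
        rw [Polynomial.natDegree_mul hf1.ne_zero cp_monic.ne_zero, cp_natDegree, cp_natDegree] at h1
        have := hf2.natDegree_pos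
        omega
      obtain ⟨e''⟩ := ih _ hlt M' N' rfl hcp'
      exact ⟨e.trans (((LinearEquiv.refl _ _).prodCongr e'').trans e'.symm)⟩

/-- On a nonzero semisimple module over a finite field, module endomorphisms realise every
determinant. -/
theorem exists_endo_det [Finite F] (M : Type v) [AddCommGroup M] [Module F[X] M] [Module F M]
    [IsScalarTower F F[X] M] [FiniteDimensional F M] [IsSemisimpleModule F[X] M] [Nontrivial M]
    (d : F) : ∃ z : M →ₗ[F[X]] M, LinearMap.det (z.restrictScalars F) = d := by
  obtain ⟨f, M', hf1, hf2, ⟨e⟩⟩ := exists_split (F := F) M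
  haveI := finite_Kq hf1.ne_zero
  haveI := finite_submodule M'
  haveI : (Ideal.span {f}).IsMaximal := PrincipalIdealRing.isMaximal_of_irreducible hf2
  letI : Field (Kq f) := Ideal.Quotient.field _
  haveI : Finite (Kq f) := Module.finite_of_finite F
  obtain ⟨u, hu⟩ := FiniteField.norm_surjective F (Kq f) d
  refine ⟨e.symm.toLinearMap.comp ((LinearMap.prodMap (LinearMap.mulLeft F[X] u) LinearMap.id).comp
    e.toLinearMap), ?_⟩
  have h1 : (e.symm.toLinearMap.comp ((LinearMap.prodMap (LinearMap.mulLeft F[X] u) LinearMap.id).comp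
      e.toLinearMap)).restrictScalars F
      = ((e.restrictScalars F).symm : (Kq f × M') →ₗ[F] M) ∘ₗ
        (LinearMap.prodMap (Algebra.lmul F (Kq f) u) (LinearMap.id : M' →ₗ[F] M')) ∘ₗ
        (((e.restrictScalars F).symm).symm : M →ₗ[F] (Kq f × M')) := by
    ext m
    rfl
  rw [h1, LinearMap.det_conj, LinearMap.det_prodMap, LinearMap.det_id, mul_one, ← Algebra.norm_apply, hu]

end Cfsg.Agent.Lib.Helper14
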