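import Mathlib

set_option autoImplicit false

namespace Cfsg.Agent.Lib.Helper14.IBIS

variable (G : Type*) {Ω : Type*} [Group G] [MulAction G Ω]

/-- base -/
def Base {t : ℕ} (f : Fin t → Ω) : Prop := ∀ g : G, (∀ i : Fin t, g • f i = f i) → g = 1

/-- irredundant -/
def Irr {t : ℕ} (f : Fin t → Ω) : Prop :=
  ∀ i : Fin t, ∃ g : G, (∀ j : Fin t, j < i → g • f j = f j) ∧ g • f i ≠ f i

/-- reordering property -/
def Reord : Prop := ∀ (t : ℕ) (f : Fin t → Ω) (σ : Equiv.Perm (Fin t)),
  (Base G f ∧ Irr G f) → (Base G (f ∘ σ) ∧ Irr G (f ∘ σ))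

variable {G}

theorem exists_le : ∀ (t : ℕ) (f : Fin t → Ω), Base G f →
    ∃ t', ∃ f' : Fin t' → Ω, (Base G f' ∧ Irr G f') ∧ t' ≤ t ∧ (¬ Irr G f → t' < t) := by
  intro t
  induction t with
  | zero =>
    intro f hb
    exact ⟨0, f, ⟨hb, fun i => i.elim0⟩, le_refl _, fun h => absurd (fun i => i.elim0) h⟩
  | succ k ih =>
    intro f hb
    by_cases hirr : Irr G f
    · exact ⟨k + 1, f, ⟨hb, hirr⟩, le_refl _, fun h => absurd hirr h⟩
    · have hirr' := hirr
      unfold Irr at hirr'
      push Not at hirr'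
      obtain ⟨i, hi⟩ := hirr'
      have hb1 : Base G (f ∘ i.succAbove) := by
        intro g hg
        apply hb
        have hne : ∀ j, j ≠ i → g • f j = f j := by
          intro j hj
          obtain ⟨l, rfl⟩ := Fin.exists_succAbove_eq hj
          exact hg l
        intro j
        by_cases hj : j = i
        · subst hj
          exact hi g fun l hl => hne l hl.ne
        · exact hne j hj
      obtain ⟨t', f', h1, h2, -⟩ := ih _ hb1
      exact ⟨t', f', h1, by omega, fun _ => by omega⟩

theorem base_comp {t : ℕ} {f : Fin t → Ω} (hb : Base G f) (σ : Equiv.Perm (Fin t)) : Base G (f ∘ σ) := by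
  intro g hg
  apply hb
  intro i
  have := hg (σ.symm i)
  simpa using this

theorem Irr.injective {t : ℕ} {f : Fin t → Ω} (h : Irr G f) : Function.Injective f := by
  intro i j hij
  by_contra hne
  rcases lt_or_gt_of_ne hne with hlt | hlt
  · obtain ⟨g, hg1, hg2⟩ := h j
    exact hg2 (hij ▸ hg1 i hlt)
  · obtain ⟨g, hg1, hg2⟩ := h i
    exact hg2 (hij ▸ hg1 j hlt)

theorem min_of_reord (hR : Reord G (Ω := Ω)) {t : ℕ} {f : Fin t → Ω} (hf : Base G f ∧ Irr G f) (i : Fin t) :
    ∃ g : G, (∀ j, j ≠ i → g • f j = f j) ∧ g • f i ≠ f i := by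
  obtain ⟨k, rfl⟩ : ∃ k, t = k + 1 := ⟨t - 1, by have := i.2; omega⟩
  obtain ⟨-, h2⟩ := hR _ f (Equiv.swap i (Fin.last k)) hf
  obtain ⟨g, hg1, hg2⟩ := h2 (Fin.last k)
  simp only [Function.comp, Equiv.swap_apply_right] at hg1 hg2
  refine ⟨g, fun j hj => ?_, hg2⟩
  have h3 : Equiv.swap i (Fin.last k) j ≠ Fin.last k := by
    intro h
    apply hj
    have := congrArg (Equiv.swap i (Fin.last k)) h
    simpa using this
  have := hg1 _ (Fin.lt_last_iff_ne_last.mpr h3)
  simpa using this

theorem irr_snoc {k : ℕ} {f : Fin k → Ω} (hf : Irr G f) (b : Ω) (h : G) (h1 : ∀ j, h • f j = f j)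
    (h2 : h • b ≠ b) : Irr G (Fin.snoc (α := fun _ => Ω) f b) := by
  intro i
  induction i using Fin.lastCases with
  | last =>
    refine ⟨h, fun j hj => ?_, by simpa using h2⟩
    induction j using Fin.lastCases with
    | last => exact absurd hj (lt_irrefl _)
    | cast j => simpa using h1 j
  | cast i =>
    obtain ⟨g, hg1, hg2⟩ := hf i
    refine ⟨g, fun j hj => ?_, by simpa using hg2⟩
    induction j using Fin.lastCases with
    | last => exact absurd (lt_trans hj (Fin.castSucc_lt_last i)) (lt_irrefl _)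
    | cast j => simpa using hg1 j (Fin.castSucc_lt_castSucc_iff.mp hj)

theorem irr_init {k : ℕ} {f : Fin (k + 1) → Ω} (hf : Irr G f) : Irr G (fun j : Fin k => f j.castSucc) := by
  intro i
  obtain ⟨g, hg1, hg2⟩ := hf i.castSucc
  exact ⟨g, fun j hj => hg1 _ (Fin.castSucc_lt_castSucc_iff.mpr hj), hg2⟩

theorem exchange (hR : Reord G (Ω := Ω)) {k t' : ℕ} {f : Fin (k + 1) → Ω} {f' : Fin t' → Ω}
    (hf : Base G f ∧ Irr G f) (hf' : Base G f') :
    ∃ b ∈ Set.range f', Base G (Fin.snoc (α := fun _ => Ω) (fun j : Fin k => f j.castSucc) b) ∧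
      Irr G (Fin.snoc (α := fun _ => Ω) (fun j : Fin k => f j.castSucc) b) := by
  obtain ⟨h, hh1, hh2⟩ := min_of_reord hR hf (Fin.last k)
  have hh : ∃ i', h • f' i' ≠ f' i' := by
    by_contra hcon
    push Not at hcon
    have := hf' h hcon
    rw [this, one_smul] at hh2
    exact hh2 rfl
  obtain ⟨i', hi'⟩ := hh
  have hirr2 : Irr G (Fin.snoc (α := fun _ => Ω) (fun j : Fin k => f j.castSucc) (f' i')) :=
    irr_snoc (irr_init hf.2) _ h (fun j => hh1 _ (Fin.castSucc_lt_last j).ne) hi'
  refine ⟨f' i', ⟨i', rfl⟩, ?_, hirr2⟩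
  intro g hg
  by_contra hg1
  have hgl : g • f (Fin.last k) ≠ f (Fin.last k) := by
    intro hfix
    apply hg1
    apply hf.1
    intro i
    induction i using Fin.lastCases with
    | last => exact hfix
    | cast j => simpa using hg j.castSucc
  have hirr3 := irr_snoc hirr2 (f (Fin.last k)) g hg hgl
  have hb3 : Base G (Fin.snoc (α := fun _ => Ω)
      (Fin.snoc (α := fun _ => Ω) (fun j : Fin k => f j.castSucc) (f' i')) (f (Fin.last k))) := by
    intro g' hg'
    apply hf.1
    intro i
    induction i using Fin.lastCases with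
    | last => simpa using hg' (Fin.last (k + 1))
    | cast j => simpa using hg' j.castSucc.castSucc
  obtain ⟨g', hg'1, hg'2⟩ := min_of_reord hR ⟨hb3, hirr3⟩ (Fin.last k).castSucc
  have : g' = 1 := by
    apply hf.1
    intro i
    induction i using Fin.lastCases with
    | last =>
      have := hg'1 (Fin.last (k + 1)) (Fin.castSucc_lt_last _).ne'
      simpa using this
    | cast j =>
      have := hg'1 j.castSucc.castSucc (fun h => by
        have := Fin.castSucc_injective _ h
        exact (Fin.castSucc_lt_last j).ne this)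
      simpa using this
  rw [this, one_smul] at hg'2
  exact hg'2 rfl

theorem same_length (hR : Reord G (Ω := Ω)) {t' : ℕ} {f' : Fin t' → Ω} (hf' : Base G f' ∧ Irr G f') :
    ∀ (m t : ℕ) (f : Fin t → Ω), (Base G f ∧ Irr G f) →
      (Set.range f \ Set.range f').ncard = m → t = t' := by
  classical
  intro m
  induction m using Nat.strong_induction_on with
  | _ m ih =>
    intro t f hf hm
    by_cases hsub : ∀ i, f i ∈ Set.range f'
    · have h1 : Set.range f' ⊆ Set.range f := by
        rintro _ ⟨i', rfl⟩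
        by_contra hcon
        obtain ⟨g, hg1, hg2⟩ := min_of_reord hR hf' i'
        have : g = 1 := by
          apply hf.1
          intro i
          obtain ⟨j', hj'⟩ := hsub i
          rw [← hj']
          apply hg1
          rintro rfl
          exact hcon ⟨i, hj'.symm⟩
        rw [this, one_smul] at hg2
        exact hg2 rfl
      have h2 : Set.range f = Set.range f' := Set.Subset.antisymm (by rintro _ ⟨i, rfl⟩; exact hsub i) h1
      have h3 := congrArg Set.ncard h2
      rw [← Set.image_univ, ← Set.image_univ, Set.ncard_image_of_injective _ hf.2.injective,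
        Set.ncard_image_of_injective _ hf'.2.injective, Set.ncard_univ, Set.ncard_univ] at h3
      simpa using h3
    · push Not at hsub
      obtain ⟨i, hi⟩ := hsub
      obtain ⟨k, rfl⟩ : ∃ k, t = k + 1 := ⟨t - 1, by have := i.2; omega⟩
      have hf1 := hR _ f (Equiv.swap i (Fin.last k)) hf
      obtain ⟨b, hb, hf2⟩ := exchange hR hf1 hf'.1
      have hlast : (f ∘ Equiv.swap i (Fin.last k)) (Fin.last k) = f i := by simp
      refine ih _ ?_ (k + 1) _ hf2 rfl
      rw [← hm]
      apply Set.ncard_lt_ncard _ (Set.toFinite _)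
      constructor
      · rintro x ⟨⟨j, rfl⟩, hx2⟩
        refine ⟨?_, hx2⟩
        induction j using Fin.lastCases with
        | last => simp at hx2; exact absurd hb (by simpa using hx2)
        | cast j => simp
      · intro hcon
        have h4 := hcon ⟨⟨i, rfl⟩, hi⟩
        obtain ⟨⟨j, hj⟩, -⟩ := h4
        induction j using Fin.lastCases with
        | last => simp at hj; exact hi (hj ▸ hb)
        | cast j =>
          simp only [Fin.snoc_castSucc] at hj
          rw [← hlast] at hj
          exact (Fin.castSucc_lt_last j).ne (hf1.2.injective hj)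

end Cfsg.Agent.Lib.Helper14.IBIS
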