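import Mathlib

set_option autoImplicit false

namespace Cfsg.Agent.Lib.Helper14.PSL2Trace

open Matrix Polynomial

variable {F : Type*} [Field F]

theorem two_eq_zero_of_card_four [Fintype F] (h : Fintype.card F = 4) : (2 : F) = 0 := by
  obtain ⟨p, hp⟩ := CharP.exists F
  obtain ⟨n, hpp, hn⟩ := FiniteField.card F p
  rw [h] at hn
  have h1 : p ∣ 2 ^ 2 := by
    rw [show (2 : ℕ) ^ 2 = 4 by norm_num, hn]
    exact dvd_pow_self p n.ne_zero
  have h2 : p = 2 := (Nat.prime_dvd_prime_iff_eq hpp Nat.prime_two).1 (hpp.dvd_of_dvd_pow h1)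
  subst h2
  exact_mod_cast CharP.cast_eq_zero F 2

/-- the square of a quadratic polynomial function is not constant on a field with at least four
elements -/
theorem quad_sq_not_const [Fintype F] (h4 : 4 ≤ Fintype.card F) (α β γ k : F) (hα : α ≠ 0)
    (h : ∀ x : F, (α * x ^ 2 + β * x + γ) ^ 2 = k) : False := by
  by_cases h5 : 5 ≤ Fintype.card F
  · have hP : (C α * X ^ 2 + C β * X + C γ) ^ 2 - C k = 0 := by
      apply eq_zero_of_natDegree_lt_card_of_eval_eq_zero _ (f := fun x : F => x) Function.injective_id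
      · intro x
        simp [h x]
      · refine lt_of_le_of_lt ?_ h5
        compute_degree
    have h1 := congrArg natDegree (sub_eq_zero.1 hP)
    rw [natDegree_pow, natDegree_quadratic hα, natDegree_C] at h1
    omega
  · have h2 := two_eq_zero_of_card_four (F := F) (by omega)
    have hP : C α * X ^ 2 + C β * X + C 0 = 0 := by
      apply eq_zero_of_natDegree_lt_card_of_eval_eq_zero _ (f := fun x : F => x) Function.injective_id
      · intro x
        have e1 := h x
        have e0 := h 0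
        have e2 : (α * x ^ 2 + β * x) ^ 2 = 0 := by
          linear_combination e1 - e0 - (α * x ^ 2 + β * x) * γ * h2
        simpa using pow_eq_zero_iff (two_ne_zero) |>.1 e2
      · rw [natDegree_quadratic hα]
        omega
    have h1 := congrArg natDegree hP
    rw [natDegree_quadratic hα, natDegree_zero] at h1
    omega

abbrev SL2 (F : Type*) [Field F] := Matrix.SpecialLinearGroup (Fin 2) F

def wEl : SL2 F := ⟨!![0, 1; -1, 0], by simp [Matrix.det_fin_two]⟩

def lEl : SL2 F := ⟨!![1, 0; 1, 1], by simp [Matrix.det_fin_two]⟩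

def uEl (x : F) : SL2 F := ⟨!![1, x; 0, 1], by simp [Matrix.det_fin_two]⟩

theorem exists_conj_ne_zero (A : SL2 F) (hA : A ∉ Subgroup.center (SL2 F)) :
    ∃ u : SL2 F, (u * A * u⁻¹).1 1 0 ≠ 0 := by
  by_cases h10 : A.1 1 0 = 0
  · by_cases h01 : A.1 0 1 = 0
    · refine ⟨lEl, ?_⟩
      have h : A.1 0 0 - A.1 1 1 ≠ 0 := by
        intro h
        apply hA
        rw [Matrix.SpecialLinearGroup.mem_center_iff]
        refine ⟨A.1 0 0, ?_, ?_⟩
        · have := A.2
          rw [Matrix.det_fin_two, h10, mul_zero, sub_zero, ← sub_eq_zero.1 h] at this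
          rw [Fintype.card_fin, pow_two]
          exact this
        · ext i j
          fin_cases i <;> fin_cases j
          · simp
          · simp [h01]
          · simp [h10]
          · simpa using sub_eq_zero.1 h
      have e : (lEl * A * lEl⁻¹).1 = !![1, 0; 1, 1] * A.1 * !![1, 0; -1, 1] := by
        rw [Matrix.SpecialLinearGroup.coe_mul, Matrix.SpecialLinearGroup.coe_mul,
          Matrix.SpecialLinearGroup.coe_inv]
        simp [lEl, Matrix.adjugate_fin_two]
      rw [e]
      simpa [Matrix.mul_apply, Fin.sum_univ_two, h10, h01, sub_eq_add_neg, Matrix.vecMul,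
        dotProduct] using h
    · refine ⟨wEl, ?_⟩
      have e : (wEl * A * wEl⁻¹).1 = !![0, 1; -1, 0] * A.1 * !![0, -1; 1, 0] := by
        rw [Matrix.SpecialLinearGroup.coe_mul, Matrix.SpecialLinearGroup.coe_mul,
          Matrix.SpecialLinearGroup.coe_inv]
        simp [wEl, Matrix.adjugate_fin_two]
      rw [e]
      simpa [Matrix.mul_apply, Fin.sum_univ_two, Matrix.vecMul, dotProduct] using h01
  · exact ⟨1, by simpa using h10⟩

theorem trace_formula (A B : SL2 F) (x : F) :
    (A * (uEl x * B * (uEl x)⁻¹)).1.trace =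
      (-(A.1 1 0 * B.1 1 0)) * x ^ 2 +
        (A.1 0 0 * B.1 1 0 + A.1 1 0 * (B.1 1 1 - B.1 0 0) - A.1 1 1 * B.1 1 0) * x +
        (A.1 0 0 * B.1 0 0 + A.1 0 1 * B.1 1 0 + A.1 1 0 * B.1 0 1 + A.1 1 1 * B.1 1 1) := by
  have e : (A * (uEl x * B * (uEl x)⁻¹)).1 = A.1 * (!![1, x; 0, 1] * B.1 * !![1, -x; 0, 1]) := by
    rw [Matrix.SpecialLinearGroup.coe_mul, Matrix.SpecialLinearGroup.coe_mul,
      Matrix.SpecialLinearGroup.coe_mul, Matrix.SpecialLinearGroup.coe_inv]
    simp [uEl, Matrix.adjugate_fin_two]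
  rw [e]
  simp [Matrix.mul_apply, Fin.sum_univ_two, Matrix.trace_fin_two, Matrix.vecMul, dotProduct]
  ring

theorem trace_conj (W X : SL2 F) : (W * X * W⁻¹).1.trace = X.1.trace := by
  rw [Matrix.SpecialLinearGroup.coe_mul, Matrix.SpecialLinearGroup.coe_mul, Matrix.trace_mul_cycle,
    ← Matrix.SpecialLinearGroup.coe_mul, inv_mul_cancel, Matrix.SpecialLinearGroup.coe_one,
    Matrix.one_mul]

theorem trace_sq_eq_of_isConj (X Y : SL2 F)
    (h : IsConj (QuotientGroup.mk X : Matrix.ProjectiveSpecialLinearGroup (Fin 2) F)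
      (QuotientGroup.mk Y)) : X.1.trace ^ 2 = Y.1.trace ^ 2 := by
  rw [isConj_iff] at h
  obtain ⟨g, hg⟩ := h
  obtain ⟨W, rfl⟩ := QuotientGroup.mk_surjective g
  rw [← QuotientGroup.mk_inv, ← QuotientGroup.mk_mul, ← QuotientGroup.mk_mul, QuotientGroup.eq,
    Matrix.SpecialLinearGroup.mem_center_iff] at hg
  obtain ⟨r, hr, hr2⟩ := hg
  rw [Fintype.card_fin] at hr
  have h1 : Y = (W * X * W⁻¹) * ((W * X * W⁻¹)⁻¹ * Y) := by group
  have h2 : Y.1 = (W * X * W⁻¹).1 * Matrix.scalar (Fin 2) r := by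
    rw [hr2, ← Matrix.SpecialLinearGroup.coe_mul, ← h1]
  have h3 : Y.1.trace = r * X.1.trace := by
    rw [h2, ← trace_conj W X]
    simp [Matrix.trace_fin_two, Matrix.mul_apply, Fin.sum_univ_two]
    ring
  rw [h3, mul_pow, hr, one_mul]

end Cfsg.Agent.Lib.Helper14.PSL2Trace
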