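import Mathlib
import Cfsg.Agent.Lib.Helper14.SU2
import Cfsg.Agent.Lib.Helper14.Transit

set_option autoImplicit false

namespace Cfsg.Agent.Lib.Helper14

open Module Matrix

variable {F : Type*} [Field F] [Fintype F] {q n : ℕ}

theorem exists_hermForm_ne_zero (hF : Fintype.card F = q ^ 2) (w : Fin n → F) (hw0 : w ≠ 0) :
    ∃ v, Cfsg.hermForm n F q v w ≠ 0 := by
  by_contra h
  push Not at h
  exact hw0 (eq_zero_of_hermForm_right hF w h)

/-- a unitary transvection has the standard shape -/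
theorem exists_eq_r1_of_transvection (hF : Fintype.card F = q ^ 2) (A : Matrix (Fin n) (Fin n) F)
    (hA : ∀ u v, Cfsg.hermForm n F q (A *ᵥ u) (A *ᵥ v) = Cfsg.hermForm n F q u v)
    (h1 : (A - 1).rank = 1) (h2 : (A - 1) * (A - 1) = 0) :
    ∃ (v : Fin n → F) (c : F), v ≠ 0 ∧ c ≠ 0 ∧ Cfsg.hermForm n F q v v = 0 ∧ c + c ^ q = 0 ∧
      ∀ x, A *ᵥ x = x + (c * Cfsg.hermForm n F q x v) • v := by
  obtain ⟨v, φ, hv, hφ, hφv, hM⟩ := exists_matrix_decomp (A - 1) h1 h2
  have hAx : ∀ x, A *ᵥ x = x + φ x • v := by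
    intro x
    have := hM x
    rw [Matrix.sub_mulVec, Matrix.one_mulVec] at this
    rw [← this]; abel
  have hstar : ∀ x y, φ y ^ q * Cfsg.hermForm n F q x v + φ x * Cfsg.hermForm n F q v y +
      φ x * φ y ^ q * Cfsg.hermForm n F q v v = 0 := by
    intro x y
    have := hA x y
    rw [hAx, hAx, hermForm_add_left, hermForm_add_right hF, hermForm_add_right hF,
      hermForm_smul_left, hermForm_smul_left, hermForm_smul_right, hermForm_smul_right] at this
    linear_combination this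
  obtain ⟨y0, hy0⟩ := exists_apply_eq_one hφ
  have hvv : Cfsg.hermForm n F q v v = 0 := by
    have := hstar v y0
    rw [hφv, hy0] at this
    simpa using this
  have hφ' : ∀ x, Cfsg.hermForm n F q x v = - Cfsg.hermForm n F q v y0 * φ x := by
    intro x
    have := hstar x y0
    rw [hy0, hvv] at this
    linear_combination this
  obtain ⟨x0, hx0⟩ := exists_hermForm_ne_zero hF v hv
  have hc' : - Cfsg.hermForm n F q v y0 ≠ 0 := by
    intro h
    apply hx0
    rw [hφ', h, zero_mul]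
  set c' := - Cfsg.hermForm n F q v y0 with hc'def
  have hφc : ∀ x, φ x = c'⁻¹ * Cfsg.hermForm n F q x v := by
    intro x
    rw [hφ', ← mul_assoc, inv_mul_cancel₀ hc', one_mul]
  refine ⟨v, c'⁻¹, hv, inv_ne_zero hc', hvv, ?_, fun x => by rw [hAx, hφc]⟩
  have h3 := hstar x0 x0
  rw [hvv, hφc, mul_pow, hermForm_swap hF] at h3
  have h4 : Cfsg.hermForm n F q v x0 ≠ 0 := by
    intro h
    exact hx0 (hermForm_eq_zero_symm hF _ _ h)
  have h5 : (c'⁻¹ + c'⁻¹ ^ q) * (Cfsg.hermForm n F q x0 v * Cfsg.hermForm n F q v x0) = 0 := by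
    linear_combination h3
  rcases mul_eq_zero.1 h5 with h | h
  · exact h
  · exact absurd h (mul_ne_zero hx0 h4)

/-- an anisotropic vector perpendicular to a given isotropic vector -/
theorem exists_anisotropic_perp (hF : Fintype.card F = q ^ 2) (hn : 3 ≤ n) (w : Fin n → F)
    (hw0 : w ≠ 0) (hww : Cfsg.hermForm n F q w w = 0) :
    ∃ a, Cfsg.hermForm n F q a w = 0 ∧ Cfsg.hermForm n F q a a ≠ 0 := by
  classical
  by_contra hcon
  push Not at hcon
  have hq := q_ge_two hF
  let x : Fin 1 → Fin n → F := fun _ => w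
  have hx : LinearIndependent F x := LinearIndependent.of_subsingleton (0 : Fin 1) hw0
  have h1 := card_isotropic_perp' hF (k := 1) (by omega) x hx (fun _ _ => hww)
  have h2 := card_hermL_fiber hF x hx 0
  have h3 : Nat.card {v // Cfsg.hermForm n F q v v = 0 ∧ ∀ i, Cfsg.hermForm n F q v (x i) = 0} =
      Nat.card {v // hermL q x v = 0} :=
    Nat.card_congr (Equiv.subtypeEquivRight fun v => by
      constructor
      · rintro ⟨_, h⟩
        exact funext h
      · intro h
        have h' : ∀ i, Cfsg.hermForm n F q v (x i) = 0 := fun i => congrFun h i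
        exact ⟨hcon v (h' 0), h'⟩)
  rw [h3, h2] at h1
  obtain ⟨r, hr⟩ : ∃ r, n = r + 3 := ⟨n - 3, by omega⟩
  subst hr
  have e1 : r + 3 - 1 = (r + 1) + 1 := by omega
  have e2 : r + 3 - 2 * 1 = r + 1 := by omega
  rw [e1, e2, pow_succ, pow_one, mul_comm] at h1
  have h4 := Nat.eq_of_mul_eq_mul_left (by positivity) h1
  have h5 : Nat.card {v : Fin (r + 1) → F // Cfsg.hermForm (r + 1) F q v v = 0} <
      Nat.card (Fin (r + 1) → F) := by
    rw [Nat.card_eq_fintype_card, Nat.card_eq_fintype_card]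
    apply Fintype.card_subtype_lt (x := Pi.single 0 1)
    rw [hermForm_single_right (q_ne_zero hF)]
    simp
  rw [← h4, Nat.card_eq_fintype_card, Fintype.card_fun, Fintype.card_fin, hF] at h5
  exact lt_irrefl _ h5

/-- quasi-reflections -/
theorem quasi_reflection_preserves (hF : Fintype.card F = q ^ 2) (a : Fin n → F) (e : F)
    (he : (1 + e * Cfsg.hermForm n F q a a) ^ (q + 1) = 1)
    (ha : Cfsg.hermForm n F q a a ≠ 0) (x y : Fin n → F) :
    Cfsg.hermForm n F q (r1 q e a a *ᵥ x) (r1 q e a a *ᵥ y) = Cfsg.hermForm n F q x y := by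
  have hα := hermForm_self_pow hF n a
  set α := Cfsg.hermForm n F q a a with hαdef
  have h1 : α * (e + e ^ q + e * e ^ q * α) = 0 := by
    rw [pow_succ, add_pow_q hF, mul_pow, one_pow, hα] at he
    linear_combination he
  have h2 : e + e ^ q + e * e ^ q * α = 0 := by
    rcases mul_eq_zero.1 h1 with h | h
    · exact absurd h ha
    · exact h
  rw [r1_mulVec, r1_mulVec]
  simp only [hermForm_add_left, hermForm_add_right hF, hermForm_smul_left, hermForm_smul_right,
    mul_pow]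
  rw [← hαdef, hermForm_swap hF y a]
  linear_combination (Cfsg.hermForm n F q x a * Cfsg.hermForm n F q a y) * h2

/-- `SU_n`, `n ≥ 3`, is transitive on non-zero isotropic vectors -/
theorem su_transitive_isotropic (hF : Fintype.card F = q ^ 2) (hn : 3 ≤ n) (v w : Fin n → F)
    (hv0 : v ≠ 0) (hvv : Cfsg.hermForm n F q v v = 0) (hw0 : w ≠ 0)
    (hww : Cfsg.hermForm n F q w w = 0) :
    ∃ g : Cfsg.SU n F q, g.1.1 *ᵥ v = w := by
  obtain ⟨g0, hg0⟩ := gu_transitive_XH hF (k := 1)
    ⟨fun _ => v, LinearIndependent.of_subsingleton (0 : Fin 1) hv0, fun _ _ => hvv⟩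
    ⟨fun _ => w, LinearIndependent.of_subsingleton (0 : Fin 1) hw0, fun _ _ => hww⟩
  have hg0' : g0.1.1 *ᵥ v = w := hg0 0
  obtain ⟨a, haw, haa⟩ := exists_anisotropic_perp hF hn w hw0 hww
  have hδ := det_pow_eq_one hF g0.1.1 g0.2
  set δ := g0.1.1.det with hδdef
  have hδ0 : δ ≠ 0 := by
    intro h
    rw [h, zero_pow (Nat.succ_ne_zero q)] at hδ
    exact zero_ne_one hδ
  set e := (δ⁻¹ - 1) / Cfsg.hermForm n F q a a with hedef
  have he1 : 1 + e * Cfsg.hermForm n F q a a = δ⁻¹ := by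
    rw [hedef]; field_simp; ring
  have he : (1 + e * Cfsg.hermForm n F q a a) ^ (q + 1) = 1 := by
    rw [he1, inv_pow, hδ, inv_one]
  refine ⟨suMk (r1 q e a a * g0.1.1) ?_ ?_, ?_⟩
  · rw [Matrix.det_mul, r1_det, he1, ← hδdef, inv_mul_cancel₀ hδ0]
  · intro x y
    rw [← Matrix.mulVec_mulVec, ← Matrix.mulVec_mulVec, quasi_reflection_preserves hF a e he haa]
    exact g0.2 x y
  · change (r1 q e a a * g0.1.1) *ᵥ v = w
    rw [← Matrix.mulVec_mulVec, hg0', r1_mulVec, hermForm_eq_zero_symm hF _ _ haw, mul_zero,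
      zero_smul, add_zero]

/-- transvections of `SU_n`, `n ≥ 3`, are conjugate -/
theorem su_transvections_conj (hF : Fintype.card F = q ^ 2) (hn : 3 ≤ n) (s t : Cfsg.SU n F q)
    (hs1 : (s.1.1 - 1).rank = 1) (hs2 : (s.1.1 - 1) * (s.1.1 - 1) = 0)
    (ht1 : (t.1.1 - 1).rank = 1) (ht2 : (t.1.1 - 1) * (t.1.1 - 1) = 0) : IsConj s t := by
  classical
  obtain ⟨v, c, hv0, hc0, hvv, hc, hs⟩ := exists_eq_r1_of_transvection hF s.1.1 s.2 hs1 hs2
  obtain ⟨v', c', hv0', hc0', hvv', hc', ht⟩ := exists_eq_r1_of_transvection hF t.1.1 t.2 ht1 ht2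
  have hκ : (c' / c) ^ q = c' / c := by
    have e1 : c ^ q = -c := by linear_combination hc
    have e2 : c' ^ q = -c' := by linear_combination hc'
    rw [div_pow, e1, e2, neg_div_neg_eq]
  have h1 := card_norm_eq hF (c' / c) hκ
  rw [if_neg (div_ne_zero hc0' hc0)] at h1
  have h2 : Nonempty {x : F // x ^ (q + 1) = c' / c} := by
    by_contra h
    rw [not_nonempty_iff] at h
    rw [Nat.card_of_isEmpty] at h1
    omega
  obtain ⟨l, hl⟩ := h2
  have hl0 : l ≠ 0 := by
    rintro rfl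
    rw [zero_pow (Nat.succ_ne_zero q)] at hl
    exact div_ne_zero hc0' hc0 hl.symm
  obtain ⟨g, hg⟩ := su_transitive_isotropic hF hn v (l • v') hv0 hvv (smul_ne_zero hl0 hv0')
    (by rw [hermForm_smul_left, hermForm_smul_right, hvv']; ring)
  rw [isConj_iff]
  refine ⟨g, ?_⟩
  rw [mul_inv_eq_iff_eq_mul]
  apply Subtype.ext
  apply Subtype.ext
  change g.1.1 * s.1.1 = t.1.1 * g.1.1
  apply Matrix.toLin'.injective
  apply LinearMap.ext
  intro x
  simp only [Matrix.toLin'_mul, LinearMap.comp_apply, Matrix.toLin'_apply]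
  rw [hs, ht, Matrix.mulVec_add, Matrix.mulVec_smul, hg]
  have h3 : Cfsg.hermForm n F q x v = l ^ q * Cfsg.hermForm n F q (g.1.1 *ᵥ x) v' := by
    rw [← hermForm_smul_right, ← hg]
    exact (g.2 x v).symm
  rw [h3, smul_smul]
  congr 2
  have h4 : c * l ^ (q + 1) = c' := by rw [hl]; field_simp
  rw [pow_succ] at h4
  linear_combination (Cfsg.hermForm n F q (g.1.1 *ᵥ x) v') * h4

end Cfsg.Agent.Lib.Helper14
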