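import Mathlib
import Cfsg.Agent.Lib.Helper14.SUTransv

set_option autoImplicit false

namespace Cfsg.Agent.Lib.Helper14

open Module Matrix
open scoped commutatorElement

variable {F : Type*} [Field F] [Fintype F] {q n : ℕ}

omit [Fintype F] in
theorem unitaryTransvection_eq_r1 (v : Fin n → F) (c : F) :
    Cfsg.unitaryTransvection n q v c = r1 q c v v := by
  unfold Cfsg.unitaryTransvection r1
  rw [Matrix.smul_vecMulVec]

/-- Siegel elements -/
def siegel (q : ℕ) (a : F) (u w : Fin n → F) : Matrix (Fin n) (Fin n) F :=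
  r1 q a u w * r1 q (-a ^ q) w u

omit [Fintype F] in
theorem siegel_mulVec (a : F) (u w : Fin n → F) (hww : Cfsg.hermForm n F q w w = 0)
    (x : Fin n → F) :
    siegel q a u w *ᵥ x = x + (a * Cfsg.hermForm n F q x w) • u -
      (a ^ q * Cfsg.hermForm n F q x u) • w := by
  rw [siegel, ← Matrix.mulVec_mulVec, r1_mulVec, r1_mulVec, hermForm_add_left, hermForm_smul_left,
    hww, mul_zero, add_zero, neg_mul, neg_smul]
  abel

omit [Fintype F] in
theorem siegel_det (a : F) (u w : Fin n → F) (huw : Cfsg.hermForm n F q u w = 0)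
    (hwu : Cfsg.hermForm n F q w u = 0) : (siegel q a u w).det = 1 := by
  rw [siegel, Matrix.det_mul, r1_det, r1_det, huw, hwu]
  ring

theorem siegel_preserves (hF : Fintype.card F = q ^ 2) (a : F) (u w : Fin n → F)
    (huu : Cfsg.hermForm n F q u u = 0) (hww : Cfsg.hermForm n F q w w = 0)
    (huw : Cfsg.hermForm n F q u w = 0) (x y : Fin n → F) :
    Cfsg.hermForm n F q (siegel q a u w *ᵥ x) (siegel q a u w *ᵥ y) = Cfsg.hermForm n F q x y := by
  have hwu := hermForm_eq_zero_symm hF _ _ huw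
  rw [siegel_mulVec a u w hww, siegel_mulVec a u w hww, sub_eq_add_neg, sub_eq_add_neg,
    ← neg_smul, ← neg_smul]
  simp only [hermForm_add_left, hermForm_add_right hF, hermForm_smul_left, hermForm_smul_right,
    huu, hww, huw, hwu, mul_pow, neg_pow_q hF, pow_q_q hF]
  rw [hermForm_swap hF y w, hermForm_swap hF y u]
  ring

theorem transvection_preserves (hF : Fintype.card F = q ^ 2) (v : Fin n → F)
    (hvv : Cfsg.hermForm n F q v v = 0) (c : F) (hc : c + c ^ q = 0) (x y : Fin n → F) :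
    Cfsg.hermForm n F q (r1 q c v v *ᵥ x) (r1 q c v v *ᵥ y) = Cfsg.hermForm n F q x y := by
  rw [r1_mulVec, r1_mulVec]
  simp only [hermForm_add_left, hermForm_add_right hF, hermForm_smul_left, hermForm_smul_right,
    hvv, mul_pow]
  rw [hermForm_swap hF y v]
  linear_combination (Cfsg.hermForm n F q x v * Cfsg.hermForm n F q v y) * hc

/-- the parameter of a unitary transvection has trace zero -/
theorem trace_zero_of_preserves (hF : Fintype.card F = q ^ 2) (v : Fin n → F) (hv0 : v ≠ 0)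
    (hvv : Cfsg.hermForm n F q v v = 0) (c : F)
    (h : ∀ x y, Cfsg.hermForm n F q (r1 q c v v *ᵥ x) (r1 q c v v *ᵥ y) =
      Cfsg.hermForm n F q x y) : c + c ^ q = 0 := by
  obtain ⟨x0, hx0⟩ := exists_hermForm_ne_zero hF v hv0
  have h4 : Cfsg.hermForm n F q v x0 ≠ 0 := fun h => hx0 (hermForm_eq_zero_symm hF _ _ h)
  have h1 := h x0 x0
  rw [r1_mulVec] at h1
  simp only [hermForm_add_left, hermForm_add_right hF, hermForm_smul_left, hermForm_smul_right,
    hvv, mul_pow] at h1
  rw [hermForm_swap hF x0 v] at h1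
  have h5 : (c + c ^ q) * (Cfsg.hermForm n F q x0 v * Cfsg.hermForm n F q v x0) = 0 := by
    linear_combination h1
  rcases mul_eq_zero.1 h5 with h | h
  · exact h
  · exact absurd h (mul_ne_zero hx0 h4)

theorem exists_sub_pow_eq (hF : Fintype.card F = q ^ 2) (c : F) (hc : c + c ^ q = 0) :
    ∃ a : F, a - a ^ q = c := by
  obtain ⟨s, hs⟩ := exists_trace_ne_zero hF
  have he : (s + s ^ q) ^ q = s + s ^ q := by rw [add_pow_q hF, pow_q_q hF, add_comm]
  have hcq : c ^ q = -c := by linear_combination hc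
  refine ⟨c * s / (s + s ^ q), ?_⟩
  rw [div_pow, mul_pow, he, hcq]
  field_simp
  ring

theorem one_lt_card_herm_zero (hF : Fintype.card F = q ^ 2) (m : ℕ) (hm : 2 ≤ m) :
    1 < Nat.card {v : Fin m → F // Cfsg.hermForm m F q v v = 0} := by
  have hq := q_ge_two hF
  rw [card_herm_zero hF]
  have h1 : 1 < q ^ m := Nat.one_lt_pow (by omega) (by omega)
  have h2 : 1 < q ^ (m - 1) := Nat.one_lt_pow (by omega) (by omega)
  split_ifs
  · have : 0 < (q ^ m - 1) * (q ^ (m - 1) + 1) := Nat.mul_pos (by omega) (by omega)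
    omega
  · have : 0 < (q ^ m + 1) * (q ^ (m - 1) - 1) := Nat.mul_pos (by omega) (by omega)
    omega

/-- a hyperbolic pair perpendicular to a given isotropic vector -/
theorem exists_hyperbolic_pair_perp (hF : Fintype.card F = q ^ 2) (hn : 4 ≤ n) (u : Fin n → F)
    (hu0 : u ≠ 0) (huu : Cfsg.hermForm n F q u u = 0) :
    ∃ v y : Fin n → F, Cfsg.hermForm n F q v v = 0 ∧ Cfsg.hermForm n F q v u = 0 ∧
      Cfsg.hermForm n F q y y = 0 ∧ Cfsg.hermForm n F q y u = 0 ∧
      Cfsg.hermForm n F q y v = 1 := by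
  classical
  have hq := q_ge_two hF
  let x : Fin 1 → Fin n → F := fun _ => u
  have hx : LinearIndependent F x := LinearIndependent.of_subsingleton (0 : Fin 1) hu0
  obtain ⟨v, hvv, hvu, hvs⟩ : ∃ v, Cfsg.hermForm n F q v v = 0 ∧ Cfsg.hermForm n F q v u = 0 ∧
      v ∉ Submodule.span F {u} := by
    by_contra hcon
    push Not at hcon
    have h1 := card_isotropic_perp' hF (k := 1) (by omega) x hx (fun _ _ => huu)
    have h2 : Nat.card {v // Cfsg.hermForm n F q v v = 0 ∧
        ∀ i, Cfsg.hermForm n F q v (x i) = 0} ≤ Nat.card (Submodule.span F {u}) :=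
      Nat.card_le_card_of_injective (fun a => ⟨a.1, hcon a.1 a.2.1 (a.2.2 0)⟩)
        (fun a b h => Subtype.ext (congrArg (fun z : Submodule.span F {u} => z.1) h))
    rw [h1, Nat.card_eq_fintype_card (α := Submodule.span F {u}),
      Module.card_eq_pow_finrank (K := F), finrank_span_singleton hu0, hF, pow_one] at h2
    have h3 := one_lt_card_herm_zero hF (n - 2 * 1) (by omega)
    have h4 : q ^ 2 * 1 < q ^ 2 * Nat.card {v : Fin (n - 2 * 1) → F //
        Cfsg.hermForm (n - 2 * 1) F q v v = 0} :=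
      Nat.mul_lt_mul_of_pos_left h3 (by positivity)
    omega
  have hLI : LinearIndependent F (Fin.cons v x : Fin 2 → Fin n → F) := by
    refine linearIndependent_finCons.2 ⟨hx, ?_⟩
    have : Set.range x = {u} := Set.range_const
    rw [this]
    exact hvs
  obtain ⟨y0, hy0⟩ := hermL_surjective hF _ hLI (Fin.cons 1 0)
  have hy0v : Cfsg.hermForm n F q y0 v = 1 := congrFun hy0 0
  have hy0u : Cfsg.hermForm n F q y0 u = 0 := congrFun hy0 1
  obtain ⟨t, ht⟩ := exists_trace_eq hF 1 one_ne_zero (-Cfsg.hermForm n F q y0 y0)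
    (by rw [neg_pow_q hF, hermForm_self_pow hF])
  refine ⟨v, y0 + t • v, hvv, hvu, ?_, ?_, ?_⟩
  · rw [hermForm_add_smul_self hF _ _ _ hvv, hy0v]
    linear_combination ht
  · rw [hermForm_add_left, hy0u, hermForm_smul_left, hvu]; ring
  · rw [hermForm_add_left, hy0v, hermForm_smul_left, hvv]; ring

theorem mem_commutatorSet_of_mul_eq {G : Type*} [Group G] (A g E : G) (h : g * E = A * E * g) :
    A ∈ commutatorSet G := by
  refine ⟨g, E, ?_⟩
  rw [commutatorElement_def, h]
  group

/-- transvections are commutators, `n ≥ 4` -/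
theorem transvection_mem_commutatorSet_of_four_le (hF : Fintype.card F = q ^ 2) (hn : 4 ≤ n)
    (A : Cfsg.SU n F q) (u : Fin n → F) (c : F) (hu0 : u ≠ 0)
    (huu : Cfsg.hermForm n F q u u = 0) (hc : c + c ^ q = 0) (hA : A.1.1 = r1 q c u u) :
    A ∈ commutatorSet (Cfsg.SU n F q) := by
  obtain ⟨v, y, hvv, hvu, hyy, hyu, hyv⟩ := exists_hyperbolic_pair_perp hF hn u hu0 huu
  obtain ⟨a, ha⟩ := exists_sub_pow_eq hF c hc
  have huv := hermForm_eq_zero_symm hF _ _ hvu
  have huy := hermForm_eq_zero_symm hF _ _ hyu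
  have hvy : Cfsg.hermForm n F q v y = 1 := by rw [← hermForm_swap hF, hyv, one_pow]
  let g : Cfsg.SU n F q := suMk (siegel q 1 u y) (siegel_det 1 u y huy hyu)
    (siegel_preserves hF 1 u y huu hyy huy)
  let E : Cfsg.SU n F q := suMk (siegel q a u v) (siegel_det a u v huv hvu)
    (siegel_preserves hF a u v huu hvv huv)
  apply mem_commutatorSet_of_mul_eq A g E
  apply Subtype.ext
  apply Subtype.ext
  change siegel q 1 u y * siegel q a u v = A.1.1 * siegel q a u v * siegel q 1 u y
  rw [hA]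
  apply Matrix.toLin'.injective
  apply LinearMap.ext
  intro x
  simp only [Matrix.toLin'_mul, LinearMap.comp_apply, Matrix.toLin'_apply]
  simp only [siegel_mulVec _ _ _ hyy, siegel_mulVec _ _ _ hvv, r1_mulVec, hermForm_add_left,
    hermForm_sub_left, hermForm_smul_left, huu, huv, huy, hvu, hyu, hvy, hyv, hvv, hyy, one_pow,
    one_mul, mul_zero, mul_one, add_zero, sub_zero]
  rw [← ha]
  module

/-- transvections are commutators, `q ≥ 3` -/
theorem transvection_mem_commutatorSet_of_three_le (hF : Fintype.card F = q ^ 2) (hn : 3 ≤ n)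
    (hq3 : 3 ≤ q)
    (A : Cfsg.SU n F q) (v : Fin n → F) (c : F) (hv0 : v ≠ 0)
    (hvv : Cfsg.hermForm n F q v v = 0) (hc : c + c ^ q = 0) (hA : A.1.1 = r1 q c v v) :
    A ∈ commutatorSet (Cfsg.SU n F q) := by
  classical
  obtain ⟨κ, hκq, hκ0, hκ1⟩ : ∃ κ : F, κ ^ q = κ ∧ κ ≠ 0 ∧ κ ≠ 1 := by
    by_contra hcon
    push Not at hcon
    have h1 := card_fixed hF
    have h2 : Nat.card {c : F // c ^ q = c} ≤ Nat.card (Fin 2) :=
      Nat.card_le_card_of_injective (fun a => if a.1 = 0 then 0 else 1) (fun a b h => by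
        apply Subtype.ext
        by_cases ha : a.1 = 0 <;> by_cases hb : b.1 = 0
        · rw [ha, hb]
        · simp [ha, hb] at h
        · simp [ha, hb] at h
        · rw [hcon a.1 a.2 ha, hcon b.1 b.2 hb])
    rw [h1, Nat.card_eq_fintype_card, Fintype.card_fin] at h2
    omega
  have h1 := card_norm_eq hF κ hκq
  rw [if_neg hκ0] at h1
  have h2 : Nonempty {x : F // x ^ (q + 1) = κ} := by
    by_contra h
    rw [not_nonempty_iff] at h
    rw [Nat.card_of_isEmpty] at h1
    omega
  obtain ⟨l, hl⟩ := h2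
  have hl0 : l ≠ 0 := by
    rintro rfl
    rw [zero_pow (Nat.succ_ne_zero q)] at hl
    exact hκ0 hl.symm
  obtain ⟨g, hg⟩ := su_transitive_isotropic hF hn v (l • v) hv0 hvv (smul_ne_zero hl0 hv0)
    (by rw [hermForm_smul_left, hermForm_smul_right, hvv]; ring)
  have hκ1' : κ - 1 ≠ 0 := sub_ne_zero.2 hκ1
  have hc2 : c / (κ - 1) + (c / (κ - 1)) ^ q = 0 := by
    have hcq : c ^ q = -c := by linear_combination hc
    rw [div_pow, sub_pow_q hF, hκq, one_pow, hcq]
    ring
  let E : Cfsg.SU n F q := suMk (r1 q (c / (κ - 1)) v v) (by rw [r1_det, hvv]; ring)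
    (transvection_preserves hF v hvv _ hc2)
  apply mem_commutatorSet_of_mul_eq A g E
  apply Subtype.ext
  apply Subtype.ext
  change g.1.1 * r1 q (c / (κ - 1)) v v = A.1.1 * r1 q (c / (κ - 1)) v v * g.1.1
  rw [hA]
  apply Matrix.toLin'.injective
  apply LinearMap.ext
  intro x
  simp only [Matrix.toLin'_mul, LinearMap.comp_apply, Matrix.toLin'_apply]
  simp only [r1_mulVec, hermForm_add_left, hermForm_smul_left, hvv, mul_zero, add_zero]
  rw [Matrix.mulVec_add, Matrix.mulVec_smul, hg]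
  have h3 : Cfsg.hermForm n F q x v = l ^ q * Cfsg.hermForm n F q (g.1.1 *ᵥ x) v := by
    rw [← hermForm_smul_right, ← hg]
    exact (g.2 x v).symm
  rw [h3, smul_smul, add_assoc, ← add_smul]
  congr 2
  rw [pow_succ] at hl
  have h5 : c / (κ - 1) * (κ - 1) = c := by field_simp
  linear_combination (Cfsg.hermForm n F q (g.1.1 *ᵥ x) v) * (c / (κ - 1)) * hl +
    (Cfsg.hermForm n F q (g.1.1 *ᵥ x) v) * h5

end Cfsg.Agent.Lib.Helper14

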