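import Mathlib

set_option autoImplicit false

namespace Cfsg.Agent.Lib.Helper14.Singer

variable {F K : Type*} [Field F] [Field K] [Algebra F K]

/-- The Singer group: multiplications by non-zero elements. -/
abbrev singer (F K : Type*) [Field F] [Field K] [Algebra F K] : Subgroup (Module.End F K)ˣ :=
  (Units.map ((Algebra.lmul F K : K →ₐ[F] Module.End F K) : K →* Module.End F K)).range

theorem lmul_injective : Function.Injective (Algebra.lmul F K) := by
  intro x y h
  have := congrArg (fun f : Module.End F K => f 1) h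
  simpa using this

/-- The elements `x` of `K` such that `g⁻¹ (mult. by x) g` is again a multiplication. -/
def conjAlg (g : (Module.End F K)ˣ) : Subalgebra F K where
  carrier := {x | ∃ y : K, ((g⁻¹ : (Module.End F K)ˣ) : Module.End F K) * Algebra.lmul F K x * (g : Module.End F K)
    = Algebra.lmul F K y}
  mul_mem' := by
    rintro a b ⟨y, hy⟩ ⟨z, hz⟩
    refine ⟨y * z, ?_⟩
    rw [map_mul, map_mul, ← hy, ← hz]
    simp only [mul_assoc]
    rw [← mul_assoc (g : Module.End F K) _ _, Units.mul_inv, one_mul]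
  add_mem' := by
    rintro a b ⟨y, hy⟩ ⟨z, hz⟩
    refine ⟨y + z, ?_⟩
    rw [map_add, map_add, ← hy, ← hz, mul_add, add_mul]
  algebraMap_mem' := by
    intro r
    refine ⟨algebraMap F K r, ?_⟩
    rw [AlgHom.commutes, ← Algebra.commutes, mul_assoc, Units.inv_mul, mul_one]

theorem mem_conjAlg {g : (Module.End F K)ˣ} {x : K} : x ∈ conjAlg g ↔
    ∃ y : K, ((g⁻¹ : (Module.End F K)ˣ) : Module.End F K) * Algebra.lmul F K x * (g : Module.End F K)
    = Algebra.lmul F K y := Iff.rfl

theorem finrank_subalgebra_dvd [FiniteDimensional F K] (A : Subalgebra F K) :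
    Module.finrank F A ∣ Module.finrank F K := by
  have hA : IsField A := A.isField_of_algebraic
  have h := Module.finrank_mul_finrank F (A.toIntermediateField' hA) K
  exact Dvd.intro _ h

theorem mem_singer {u : (Module.End F K)ˣ} : u ∈ singer F K ↔
    ∃ x : K, x ≠ 0 ∧ (u : Module.End F K) = Algebra.lmul F K x := by
  constructor
  · rintro ⟨x, rfl⟩
    exact ⟨x, x.ne_zero, rfl⟩
  · rintro ⟨x, hx, h⟩
    exact ⟨Units.mk0 x hx, Units.ext h.symm⟩

theorem mem_map_conj {g u : (Module.End F K)ˣ} : u ∈ (singer F K).map (MulAut.conj g).toMonoidHom ↔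
    ∃ y : K, y ≠ 0 ∧ ((g⁻¹ : (Module.End F K)ˣ) : Module.End F K) * (u : Module.End F K) * (g : Module.End F K)
      = Algebra.lmul F K y := by
  constructor
  · rintro ⟨v, hv, rfl⟩
    obtain ⟨y, hy, h⟩ := mem_singer.mp hv
    refine ⟨y, hy, ?_⟩
    rw [← h]
    simp [mul_assoc]
  · rintro ⟨y, hy, h⟩
    refine ⟨g⁻¹ * u * g, mem_singer.mpr ⟨y, hy, by simpa using h⟩, ?_⟩
    simp [mul_assoc]

/-- The intersection of the Singer group with a conjugate is the unit group of a subfield. -/
theorem card_inf [Finite K] (g : (Module.End F K)ˣ) :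
    Nat.card ↥((singer F K).map (MulAut.conj g).toMonoidHom ⊓ singer F K) + 1 = Nat.card (conjAlg g) := by
  classical
  have e : ↥((singer F K).map (MulAut.conj g).toMonoidHom ⊓ singer F K) ≃ {x : conjAlg g // x ≠ 0} := by
    symm
    refine Equiv.ofBijective (fun x => ⟨Units.map ((Algebra.lmul F K : K →ₐ[F] Module.End F K) : K →* Module.End F K)
      (Units.mk0 (x.1 : K) (fun h => x.2 (Subtype.ext h))), ?_, ?_⟩) ⟨?_, ?_⟩
    · obtain ⟨y, hy⟩ := x.1.2
      refine mem_map_conj.mpr ⟨y, ?_, hy⟩
      rintro rfl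
      rw [map_zero] at hy
      have h1 : Algebra.lmul F K (x.1 : K) = 0 := by
        have := congrArg (fun f => (g : Module.End F K) * f * ((g⁻¹ : (Module.End F K)ˣ) : Module.End F K)) hy
        simpa [mul_assoc] using this
      exact x.2 (Subtype.ext (lmul_injective (h1.trans (map_zero _).symm)))
    · exact ⟨_, rfl⟩
    · intro x y h
      have h1 := congrArg (fun u => ((u : (Module.End F K)ˣ) : Module.End F K)) (congrArg Subtype.val h)
      exact Subtype.ext (Subtype.ext (lmul_injective h1))
    · rintro ⟨u, hu1, hu2⟩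
      obtain ⟨x, hx, h⟩ := mem_singer.mp hu2
      obtain ⟨y, hy, h'⟩ := mem_map_conj.mp hu1
      refine ⟨⟨⟨x, ⟨y, by rw [← h]; exact h'⟩⟩, fun h0 => hx (congrArg Subtype.val h0)⟩, ?_⟩
      exact Subtype.ext (Units.ext h.symm)
  rw [Nat.card_congr e]
  have : Fintype (conjAlg g) := Fintype.ofFinite _
  rw [Nat.card_eq_fintype_card, Nat.card_eq_fintype_card, Fintype.card_subtype_compl, Fintype.card_subtype_eq]
  have : 0 < Fintype.card (conjAlg g) := Fintype.card_pos
  omega

end Cfsg.Agent.Lib.Helper14.Singer
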