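import Mathlib

set_option autoImplicit false

namespace Cfsg.Agent.Lib.Helper14.SingerConj

open Module Polynomial

section General

variable {F V : Type*} [Field F] [Fintype F] [AddCommGroup V] [Module F V] [Finite V]

theorem card_modEq (z : Module.End F V) (r : ℕ) [Fact r.Prime] (hz : z ^ r = 1)
    (W : Submodule F V) (hW : ∀ w ∈ W, z w ∈ W) :
    Nat.card W ≡ Nat.card (W ⊓ LinearMap.ker (z - 1) : Submodule F V) [MOD r] := by
  classical
  let _ : Fintype V := Fintype.ofFinite V
  let f : Function.End W := fun w => ⟨z w, hW w w.2⟩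
  have hpow : ∀ (k : ℕ) (w : W), (((f ^ k) w : W) : V) = (z ^ k) w := by
    intro k
    induction k with
    | zero => intro w; rfl
    | succ k ih =>
      intro w
      rw [pow_succ, pow_succ]
      change (((f ^ k) (f w) : W) : V) = (z ^ k) (z w)
      rw [ih]
  have hf : f ^ r ^ 1 = 1 := by
    funext w
    apply Subtype.ext
    rw [pow_one, hpow, hz]
    rfl
  have h1 := Equiv.Perm.card_fixedPoints_modEq hf
  rw [← Nat.card_eq_fintype_card, ← Nat.card_eq_fintype_card] at h1
  have h4 : Nat.card (Function.fixedPoints f) =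
      Nat.card (W ⊓ LinearMap.ker (z - 1) : Submodule F V) := ?_
  · rw [← h4]; exact h1
  apply Nat.card_congr
  refine ⟨fun w => ⟨w.1.1, w.1.2, ?_⟩, fun w => ⟨⟨w.1, w.2.1⟩, ?_⟩, fun w => rfl, fun w => rfl⟩
  · have h2 : f w.1 = w.1 := w.2
    have h3 : z w.1.1 = w.1.1 := congrArg Subtype.val h2
    change w.1.1 ∈ LinearMap.ker (z - 1)
    rw [LinearMap.mem_ker, LinearMap.sub_apply, h3]
    simp
  · have h2 : w.1 ∈ LinearMap.ker (z - 1) := w.2.2
    rw [LinearMap.mem_ker, LinearMap.sub_apply, sub_eq_zero] at h2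
    exact Subtype.ext h2

theorem card_submodule (W : Submodule F V) : Nat.card W = Fintype.card F ^ finrank F W := by
  let _ : Fintype W := Fintype.ofFinite W
  rw [Nat.card_eq_fintype_card, Module.card_eq_pow_finrank (K := F) (V := W)]

/-- an element of primitive prime order acts irreducibly -/
theorem irreducible_of_order {n r : ℕ} (hdim : finrank F V = n) (hr : r.Prime)
    (hr1 : r ∣ Fintype.card F ^ n - 1)
    (hr2 : ∀ k : ℕ, 0 < k → k < n → ¬ r ∣ Fintype.card F ^ k - 1)
    (z : Module.End F V) (hz : z ^ r = 1) (hz1 : z ≠ 1)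
    (W : Submodule F V) (hW : ∀ w ∈ W, z w ∈ W) : W = ⊥ ∨ W = ⊤ := by
  have : Fact r.Prime := ⟨hr⟩
  have : FiniteDimensional F V := Module.Finite.of_finite
  set q := Fintype.card F with hq
  have hq1 : 1 ≤ q := Fintype.card_pos
  have hA : ∀ k, k ≤ n → q ^ k ≡ 1 [MOD r] → k = 0 ∨ k = n := by
    intro k hk h
    by_contra hcon
    push Not at hcon
    apply hr2 k (Nat.pos_of_ne_zero hcon.1) (lt_of_le_of_ne hk hcon.2)
    exact (Nat.modEq_iff_dvd' (Nat.one_le_pow _ _ hq1)).1 h.symm
  have hn1 : q ^ n ≡ 1 [MOD r] := ((Nat.modEq_iff_dvd' (Nat.one_le_pow _ _ hq1)).2 hr1).symm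
  have hle : ∀ S : Submodule F V, finrank F S ≤ n := fun S => hdim ▸ Submodule.finrank_le S
  have hfix : LinearMap.ker (z - 1) = ⊥ := by
    have h1 := card_modEq z r hz ⊤ (fun _ _ => Submodule.mem_top)
    rw [top_inf_eq, card_submodule, card_submodule, finrank_top, hdim] at h1
    rcases hA _ (hle _) (h1.symm.trans hn1) with h | h
    · exact Submodule.finrank_eq_zero.1 h
    · exfalso
      apply hz1
      have h2 : LinearMap.ker (z - 1) = ⊤ := Submodule.eq_top_of_finrank_eq (h.trans hdim.symm)
      have h3 : z - 1 = 0 := LinearMap.ker_eq_top.1 h2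
      exact sub_eq_zero.1 h3
  have h1 := card_modEq z r hz W hW
  rw [hfix, inf_bot_eq, card_submodule, card_submodule, finrank_bot, pow_zero] at h1
  rcases hA _ (hle _) h1 with h | h
  · left; exact Submodule.finrank_eq_zero.1 h
  · right; exact Submodule.eq_top_of_finrank_eq (h.trans hdim.symm)

omit [Fintype F] [Finite V] in
theorem eq_zero_of_commute (z : Module.End F V)
    (hirr : ∀ W : Submodule F V, (∀ w ∈ W, z w ∈ W) → W = ⊥ ∨ W = ⊤)
    (c : Module.End F V) (hc : Commute c z) (v : V) (hv : v ≠ 0) (hcv : c v = 0) : c = 0 := by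
  rcases hirr (LinearMap.ker c) (by
    intro w hw
    rw [LinearMap.mem_ker] at hw ⊢
    have : c (z w) = z (c w) := congrArg (fun f : Module.End F V => f w) hc
    rw [this, hw, map_zero]) with h | h
  · exfalso
    apply hv
    have : v ∈ LinearMap.ker c := hcv
    rw [h] at this
    exact this
  · exact LinearMap.ker_eq_top.1 h

omit [Fintype F] in
theorem card_centralizer_le [Nontrivial V] (z : (Module.End F V)ˣ)
    (hirr : ∀ W : Submodule F V, (∀ w ∈ W, (z : Module.End F V) w ∈ W) → W = ⊥ ∨ W = ⊤) :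
    Nat.card (Subgroup.centralizer ({z} : Set (Module.End F V)ˣ)) ≤ Nat.card V - 1 := by
  classical
  obtain ⟨v, hv⟩ := exists_ne (0 : V)
  have h1 : Nat.card {w : V // w ≠ 0} = Nat.card V - 1 := by
    let _ : Fintype V := Fintype.ofFinite V
    rw [Nat.card_eq_fintype_card, Nat.card_eq_fintype_card, Fintype.card_subtype_compl]
    simp
  rw [← h1]
  apply Nat.card_le_card_of_injective
    (fun c : Subgroup.centralizer ({z} : Set (Module.End F V)ˣ) =>
      (⟨(c.1 : Module.End F V) v, by
        intro h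
        apply hv
        have := congrArg ((c.1⁻¹ : (Module.End F V)ˣ) : Module.End F V) h
        rw [map_zero, ← Module.End.mul_apply, Units.inv_mul] at this
        exact this⟩ : {w : V // w ≠ 0}))
  intro c d hcd
  have h2 : (c.1 : Module.End F V) v = (d.1 : Module.End F V) v := congrArg Subtype.val hcd
  have hcz : ∀ e : Subgroup.centralizer ({z} : Set (Module.End F V)ˣ),
      Commute (e.1 : Module.End F V) (z : Module.End F V) := by
    intro e
    have := Subgroup.mem_centralizer_iff.1 e.2 z rfl
    exact (congrArg Units.val this).symm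
  have h3 := eq_zero_of_commute (z : Module.End F V) hirr ((c.1 : Module.End F V) - d.1)
    ((hcz c).sub_left (hcz d)) v hv (by rw [LinearMap.sub_apply, h2, sub_self])
  exact Subtype.ext (Units.ext (sub_eq_zero.1 h3))

end General

section Fld

variable {F K : Type*} [Field F] [Field K] [Fintype K] [Algebra F K]

theorem exists_conj_lmul (x : (Module.End F K)ˣ)
    (hirr : ∀ W : Submodule F K, (∀ w ∈ W, (x : Module.End F K) w ∈ W) → W = ⊥ ∨ W = ⊤)
    (hx : (x : Module.End F K) ^ Fintype.card K = x) :
    ∃ (g : (Module.End F K)ˣ) (θ : K),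
      (g : Module.End F K) * x = Algebra.lmul F K θ * g := by
  classical
  have : FiniteDimensional F K := Module.Finite.of_finite
  set Y : Module.End F K := (x : Module.End F K) with hY
  have hint : IsIntegral F Y := IsIntegral.of_finite F Y
  set f := minpoly F Y with hf
  have hdvd : f ∣ (X ^ Fintype.card K - X : F[X]) := minpoly.dvd F Y (by simp [hx])
  have hspl := (FiniteField.isSplittingField_sub K F).splits
  have hne : (X ^ Fintype.card K - X : F[X]).map (algebraMap F K) ≠ 0 := by
    rw [Polynomial.map_sub, Polynomial.map_pow, Polynomial.map_X]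
    exact FiniteField.X_pow_card_sub_X_ne_zero K Fintype.one_lt_card
  have hspl' := hspl.of_dvd hne (Polynomial.map_dvd (algebraMap F K) hdvd)
  obtain ⟨θ, hθ⟩ := hspl'.exists_eval_eq_zero (by
    rw [Polynomial.degree_map]
    exact (minpoly.degree_pos hint).ne')
  have hθ' : aeval θ f = 0 := by rw [Polynomial.aeval_def, Polynomial.eval₂_eq_eval_map]; exact hθ
  let πx : F[X] →ₗ[F] K := (LinearMap.applyₗ (1 : K)) ∘ₗ (aeval Y).toLinearMap
  let πθ : F[X] →ₗ[F] K := (aeval θ).toLinearMap
  have hπx : ∀ p, πx p = (aeval Y p) 1 := fun p => rfl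
  have hπθ : ∀ p, πθ p = aeval θ p := fun p => rfl
  have hπxX : ∀ p, πx (X * p) = Y (πx p) := by
    intro p
    rw [hπx, hπx, map_mul, aeval_X]
    rfl
  have hsurj : Function.Surjective πx := by
    rw [← LinearMap.range_eq_top]
    rcases hirr (LinearMap.range πx) (by
      rintro w ⟨p, rfl⟩
      exact ⟨X * p, hπxX p⟩) with h | h
    · exfalso
      have h1 : πx 1 ∈ LinearMap.range πx := ⟨1, rfl⟩
      rw [h, Submodule.mem_bot, hπx] at h1
      have h2 : aeval Y (1 : F[X]) = 1 := map_one _
      rw [h2] at h1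
      exact one_ne_zero h1
    · exact h
  have hle : LinearMap.ker πx ≤ LinearMap.ker πθ := by
    intro p hp
    rw [LinearMap.mem_ker] at hp ⊢
    have hc : Commute (aeval Y p) Y := by
      have : Commute (aeval Y p) (aeval Y (X : F[X])) := by
        change aeval Y p * aeval Y X = aeval Y X * aeval Y p
        rw [← map_mul, ← map_mul, mul_comm]
      rwa [aeval_X] at this
    have h0 := eq_zero_of_commute Y hirr (aeval Y p) hc 1 one_ne_zero hp
    obtain ⟨c, rfl⟩ := minpoly.dvd F Y h0
    rw [hπθ, map_mul, ← hf, hθ', zero_mul]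
  let h : K →ₗ[F] K := (Submodule.liftQ (LinearMap.ker πx) πθ hle) ∘ₗ
    (πx.quotKerEquivOfSurjective hsurj).symm.toLinearMap
  have hprop : ∀ p, h (πx p) = πθ p := by
    intro p
    have h1 : (πx.quotKerEquivOfSurjective hsurj).symm (πx p) = Submodule.Quotient.mk p := by
      rw [LinearEquiv.symm_apply_eq]
      rfl
    change Submodule.liftQ (LinearMap.ker πx) πθ hle
      ((πx.quotKerEquivOfSurjective hsurj).symm (πx p)) = _
    rw [h1]
    rfl
  have hcomm : ∀ w, h (Y w) = θ * h w := by
    intro w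
    obtain ⟨p, rfl⟩ := hsurj w
    rw [← hπxX, hprop, hprop, hπθ, hπθ, map_mul, aeval_X]
  have hinj : Function.Injective h := by
    rw [← LinearMap.ker_eq_bot]
    rcases hirr (LinearMap.ker h) (by
      intro w hw
      rw [LinearMap.mem_ker] at hw ⊢
      rw [hcomm, hw, mul_zero]) with h1 | h1
    · exact h1
    · exfalso
      have h2 : πx 1 ∈ LinearMap.ker h := by rw [h1]; exact Submodule.mem_top
      rw [LinearMap.mem_ker, hprop, hπθ, map_one] at h2
      exact one_ne_zero h2
  have hsur : Function.Surjective h := LinearMap.injective_iff_surjective.1 hinj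
  refine ⟨LinearMap.GeneralLinearGroup.ofLinearEquiv (LinearEquiv.ofBijective h ⟨hinj, hsur⟩), θ, ?_⟩
  apply LinearMap.ext
  intro w
  exact hcomm w

end Fld

end Cfsg.Agent.Lib.Helper14.SingerConj
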