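import Mathlib
import Cfsg.Agent.Lib.Helper14.Frames
import Cfsg.Agent.Lib.Helper5.SympGen
import Cfsg.Agent.S0749

set_option autoImplicit false

namespace Cfsg.Agent.Lib.Helper14

open Module Matrix Cfsg.Agent.Lib.Helper5

variable {F : Type*} [Field F] {m : ℕ}

local notation "VV" => (Fin m ⊕ Fin m → F)

theorem sympB_nondegenerate : (sympB m F : LinearMap.BilinForm F VV).Nondegenerate :=
  ⟨sympB_sepLeft, sympB_sepRight⟩

/-- the form vanishes on the span iff it vanishes on the generators -/
theorem symp_span_isotropic {ι : Type*} (s : ι → VV) :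
    (∀ i j, Cfsg.sympForm m F (s i) (s j) = 0) ↔
      ∀ u ∈ Submodule.span F (Set.range s), ∀ v ∈ Submodule.span F (Set.range s),
        Cfsg.sympForm m F u v = 0 := by
  constructor
  · intro h
    have h1 : ∀ j, Submodule.span F (Set.range s) ≤ LinearMap.ker ((sympB m F).flip (s j)) := by
      intro j
      rw [Submodule.span_le]
      rintro _ ⟨i, rfl⟩
      exact h i j
    intro u hu
    have h2 : Submodule.span F (Set.range s) ≤ LinearMap.ker (sympB m F u) := by
      rw [Submodule.span_le]
      rintro _ ⟨j, rfl⟩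
      exact h1 j hu
    exact fun v hv => h2 hv
  · intro h i j
    exact h _ (Submodule.subset_span ⟨i, rfl⟩) _ (Submodule.subset_span ⟨j, rfl⟩)

/-- totally isotropic frames -/
abbrev XS (F : Type*) [Field F] (m k : ℕ) : Type _ :=
  {s : Fin k → (Fin m ⊕ Fin m → F) // LinearIndependent F s ∧
    ∀ i j, Cfsg.sympForm m F (s i) (s j) = 0}

theorem mem_orthogonal_span {ι : Type*} (s : ι → VV) (v : VV) :
    v ∈ LinearMap.BilinForm.orthogonal (sympB m F : LinearMap.BilinForm F VV)
        (Submodule.span F (Set.range s)) ↔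
      ∀ i, Cfsg.sympForm m F (s i) v = 0 := by
  rw [LinearMap.BilinForm.mem_orthogonal_iff]
  constructor
  · intro h i
    exact h _ (Submodule.subset_span ⟨i, rfl⟩)
  · intro h
    have h1 : Submodule.span F (Set.range s) ≤ LinearMap.ker ((sympB m F).flip v) := by
      rw [Submodule.span_le]
      rintro _ ⟨i, rfl⟩
      exact h i
    exact fun n hn => h1 hn

variable [Fintype F]

theorem card_sub_of_le {V : Type*} [AddCommGroup V] [Module F V] [Finite V]
    (U U' : Submodule F V) (h : U ≤ U') :
    Nat.card {v : V // v ∈ U' ∧ v ∉ U} =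
      Fintype.card F ^ finrank F U' - Fintype.card F ^ finrank F U := by
  classical
  haveI := Fintype.ofFinite V
  have h1 : Nat.card U' = Fintype.card F ^ finrank F U' := by
    rw [Nat.card_eq_fintype_card, Module.card_eq_pow_finrank (K := F)]
  have h2 : Nat.card U = Fintype.card F ^ finrank F U := by
    rw [Nat.card_eq_fintype_card, Module.card_eq_pow_finrank (K := F)]
  have h3 : Nat.card U' = Nat.card {v : V // v ∈ U' ∧ v ∉ U} + Nat.card U := by
    have e : U' ≃ {v : V // v ∈ U' ∧ v ∉ U} ⊕ U :=
      { toFun := fun x => if hx : x.1 ∈ U then Sum.inr ⟨x.1, hx⟩ else Sum.inl ⟨x.1, x.2, hx⟩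
        invFun := fun y => Sum.elim (fun a => ⟨a.1, a.2.1⟩) (fun b => ⟨b.1, h b.2⟩) y
        left_inv := fun x => by
          by_cases hx : x.1 ∈ U <;> simp [hx]
        right_inv := fun y => by
          rcases y with a | b
          · simp [a.2.2]
          · simp [b.2] }
    rw [Nat.card_congr e, Nat.card_sum]
  omega

theorem card_XS_succ (k : ℕ) :
    Nat.card (XS F m (k + 1)) =
      Nat.card (XS F m k) * (Fintype.card F ^ (2 * m - k) - Fintype.card F ^ k) := by
  classical
  let f : XS F m (k + 1) → XS F m k := fun t =>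
    ⟨Fin.tail t.1, (linearIndependent_finSucc.1 t.2.1).1, fun i j => t.2.2 i.succ j.succ⟩
  refine card_eq_mul_of_fibers f _ fun s => ?_
  set U := Submodule.span F (Set.range s.1) with hU
  set B : LinearMap.BilinForm F VV := sympB m F with hB
  have hle : U ≤ B.orthogonal U := by
    intro u hu
    rw [LinearMap.BilinForm.mem_orthogonal_iff]
    intro n hn
    exact (symp_span_isotropic s.1).1 s.2.2 n hn u hu
  have h1 := card_sub_of_le U (B.orthogonal U) hle
  rw [LinearMap.BilinForm.finrank_orthogonal sympB_nondegenerate, finrank_span_eq_card s.2.1,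
    Module.finrank_fintype_fun_eq_card, Fintype.card_sum, Fintype.card_fin, Fintype.card_fin,
    ← two_mul] at h1
  rw [← h1]
  refine Nat.card_congr
    { toFun := fun t => ⟨t.1.1 0, ?_, ?_⟩
      invFun := fun v => ⟨⟨Fin.cons v.1 s.1, ?_, ?_⟩, ?_⟩
      left_inv := fun t => ?_
      right_inv := fun v => rfl }
  · rw [hU, mem_orthogonal_span]
    intro i
    have := congrArg Subtype.val t.2
    change Fin.tail t.1.1 = s.1 at this
    rw [← this]
    exact t.1.2.2 i.succ 0
  · have := congrArg Subtype.val t.2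
    change Fin.tail t.1.1 = s.1 at this
    rw [hU, ← this]
    exact (linearIndependent_finSucc.1 t.1.2.1).2
  · exact linearIndependent_finCons.2 ⟨s.2.1, v.2.2⟩
  · have hv := (mem_orthogonal_span s.1 v.1).1 v.2.1
    intro i j
    refine Fin.cases ?_ (fun i => ?_) i <;> refine Fin.cases ?_ (fun j => ?_) j
    · simp [sympForm_self]
    · simp only [Fin.cons_zero, Fin.cons_succ]
      rw [sympForm_swap, hv j, neg_zero]
    · simp only [Fin.cons_zero, Fin.cons_succ]
      exact hv i
    · simp only [Fin.cons_succ]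
      exact s.2.2 i j
  · apply Subtype.ext
    change Fin.tail (Fin.cons v.1 s.1 : Fin (k + 1) → VV) = s.1
    exact Fin.tail_cons _ _
  · apply Subtype.ext
    apply Subtype.ext
    have := congrArg Subtype.val t.2
    change Fin.tail t.1.1 = s.1 at this
    change Fin.cons (t.1.1 0) s.1 = t.1.1
    rw [← this, Fin.cons_self_tail]

theorem card_XS (k : ℕ) :
    Nat.card (XS F m k) =
      ∏ i ∈ Finset.range k, (Fintype.card F ^ (2 * m - i) - Fintype.card F ^ i) := by
  induction k with
  | zero =>
    haveI : Unique (XS F m 0) :=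
      { default := ⟨fun i => i.elim0, linearIndependent_empty_type, fun i => i.elim0⟩
        uniq := fun a => Subtype.ext (Subsingleton.elim _ _) }
    simp
  | succ k ih => rw [card_XS_succ, ih, Finset.prod_range_succ]

omit [Fintype F] in
/-- Witt: `Sp` is transitive on totally isotropic frames. -/
theorem sp_transitive_XS {k : ℕ} (s t : XS F m k) :
    ∃ g : Matrix.symplecticGroup (Fin m) F, ∀ i, g.1 *ᵥ s.1 i = t.1 i := by
  set B : LinearMap.BilinForm F VV := sympB m F with hB
  let b := Basis.span s.2.1
  let b' := Basis.span t.2.1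
  let φ := b.equiv b' (Equiv.refl _)
  obtain ⟨g, hg1, hg2⟩ := Cfsg.Agent.S0749.result B sympB_nondegenerate
    (fun u => sympForm_self u) _ _ φ (by
      intro x x'
      have h1 : B (φ x : VV) (φ x' : VV) = 0 :=
        (symp_span_isotropic t.1).1 t.2.2 _ (φ x).2 _ (φ x').2
      have h2 : B (x : VV) (x' : VV) = 0 :=
        (symp_span_isotropic s.1).1 s.2.2 _ x.2 _ x'.2
      rw [h1, h2])
  have hA : ∀ v, LinearMap.toMatrix' (g : VV →ₗ[F] VV) *ᵥ v = g v := by
    intro v
    rw [← Matrix.toLin'_apply, Matrix.toLin'_toMatrix']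
    rfl
  refine ⟨⟨LinearMap.toMatrix' (g : VV →ₗ[F] VV), ?_⟩, ?_⟩
  · rw [mem_symplecticGroup_iff_preserves]
    intro u v
    rw [hA, hA]
    exact hg1 u v
  · intro i
    change LinearMap.toMatrix' (g : VV →ₗ[F] VV) *ᵥ s.1 i = _
    rw [hA]
    have h1 := hg2 (b i)
    have h2 : (b i : VV) = s.1 i := congrArg Subtype.val (Basis.span_apply s.2.1 i)
    have h3 : φ (b i) = b' i := by simp [φ]
    have h4 : (b' i : VV) = t.1 i := congrArg Subtype.val (Basis.span_apply t.2.1 i)
    rw [h2, h3, h4] at h1
    exact h1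

end Cfsg.Agent.Lib.Helper14
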