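import Mathlib

set_option autoImplicit false

namespace Cfsg.Agent.Lib.Helper14.SqZero

open Module LinearMap

variable {K V : Type*} [Field K] [AddCommGroup V] [Module K V] [FiniteDimensional K V]

/-- Normal form of a square-zero endomorphism. -/
theorem exists_nf (N : V →ₗ[K] V) (hN : ∀ v, N (N v) = 0) (s t : ℕ) (hs : finrank K (range N) = s)
    (ht : finrank K V = 2 * s + t) :
    ∃ Φ : V ≃ₗ[K] (Fin s → K) × (Fin s → K) × (Fin t → K), ∀ v, Φ (N v) = (0, (Φ v).1, 0) := by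
  have hRK : range N ≤ ker N := by
    rintro _ ⟨v, rfl⟩
    exact hN v
  obtain ⟨W, hW⟩ := Submodule.exists_isCompl (ker N)
  have hinj : Function.Injective (N.rangeRestrict ∘ₗ W.subtype) := by
    rw [← LinearMap.ker_eq_bot, LinearMap.ker_eq_bot']
    intro w hw
    have h1 : N (w : V) = 0 := congrArg Subtype.val hw
    have h2 : (w : V) ∈ ker N ⊓ W := ⟨h1, w.2⟩
    rw [hW.inf_eq_bot] at h2
    exact Subtype.ext h2
  have hsurj : Function.Surjective (N.rangeRestrict ∘ₗ W.subtype) := by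
    rintro ⟨_, ⟨v, rfl⟩⟩
    have hv : v ∈ ker N ⊔ W := hW.sup_eq_top ▸ Submodule.mem_top
    obtain ⟨k, hk, w, hw, rfl⟩ := Submodule.mem_sup.mp hv
    refine ⟨⟨w, hw⟩, Subtype.ext ?_⟩
    show N w = N (k + w)
    rw [map_add, LinearMap.mem_ker.mp hk, zero_add]
  let ν : W ≃ₗ[K] range N := LinearEquiv.ofBijective _ ⟨hinj, hsurj⟩
  have hν : ∀ w : W, ((ν w : range N) : V) = N (w : V) := fun w => rfl
  obtain ⟨Z, hZ⟩ := Submodule.exists_isCompl ((range N).submoduleOf (ker N))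
  have hWs : finrank K W = s := by rw [ν.finrank_eq, hs]
  have hR's : finrank K ((range N).submoduleOf (ker N)) = s := by
    rw [(Submodule.submoduleOfEquivOfLe hRK).finrank_eq, hs]
  have hZt : finrank K Z = t := by
    have e1 := Submodule.finrank_add_eq_of_isCompl hW
    have e2 := Submodule.finrank_add_eq_of_isCompl hZ
    omega
  let β : W ≃ₗ[K] (Fin s → K) := LinearEquiv.ofFinrankEq _ _ (by simp [hWs])
  let γ : Z ≃ₗ[K] (Fin t → K) := LinearEquiv.ofFinrankEq _ _ (by simp [hZt])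
  let ρ : (range N).submoduleOf (ker N) ≃ₗ[K] W := (Submodule.submoduleOfEquivOfLe hRK) ≪≫ₗ ν.symm
  let Φ : V ≃ₗ[K] (Fin s → K) × (Fin s → K) × (Fin t → K) :=
    (Submodule.prodEquivOfIsCompl W (ker N) hW.symm).symm ≪≫ₗ
      (β.prodCongr ((Submodule.prodEquivOfIsCompl _ Z hZ).symm ≪≫ₗ ((ρ ≪≫ₗ β).prodCongr γ)))
  refine ⟨Φ, fun v => ?_⟩
  obtain ⟨p, rfl⟩ := (Submodule.prodEquivOfIsCompl W (ker N) hW.symm).surjective v
  have h1 : N (Submodule.prodEquivOfIsCompl W (ker N) hW.symm p) = N (p.1 : V) := by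
    rw [Submodule.coe_prodEquivOfIsCompl', map_add, LinearMap.mem_ker.mp p.2.2, add_zero]
  have hy : N (p.1 : V) ∈ ker N := hN _
  have hy' : (⟨N (p.1 : V), hy⟩ : ker N) ∈ (range N).submoduleOf (ker N) := ⟨p.1, rfl⟩
  have h2 : (Submodule.prodEquivOfIsCompl W (ker N) hW.symm).symm (N (p.1 : V)) = (0, ⟨N (p.1 : V), hy⟩) :=
    Submodule.prodEquivOfIsCompl_symm_apply_right W (ker N) hW.symm ⟨N (p.1 : V), hy⟩
  have h3 : (Submodule.prodEquivOfIsCompl _ Z hZ).symm (⟨N (p.1 : V), hy⟩ : ker N) =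
      (⟨⟨N (p.1 : V), hy⟩, hy'⟩, 0) :=
    Submodule.prodEquivOfIsCompl_symm_apply_left _ Z hZ ⟨⟨N (p.1 : V), hy⟩, hy'⟩
  have h4 : ρ ⟨⟨N (p.1 : V), hy⟩, hy'⟩ = p.1 := by
    show ν.symm _ = p.1
    rw [LinearEquiv.symm_apply_eq]
    exact Subtype.ext rfl
  rw [h1]
  simp only [Φ, LinearEquiv.trans_apply, h2, LinearEquiv.symm_apply_apply, LinearEquiv.prodCongr_apply,
    h3, h4, map_zero]

/-- Square-zero endomorphisms of the same rank are conjugate. -/
theorem exists_conj (N N' : V →ₗ[K] V) (hN : ∀ v, N (N v) = 0) (hN' : ∀ v, N' (N' v) = 0)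
    (h : finrank K (range N) = finrank K (range N')) :
    ∃ g : V ≃ₗ[K] V, ∀ v, g (N v) = N' (g v) := by
  have hle : 2 * finrank K (range N) ≤ finrank K V := by
    have h1 := LinearMap.finrank_range_add_finrank_ker N
    have h2 : finrank K (range N) ≤ finrank K (ker N) := by
      apply Submodule.finrank_mono
      rintro _ ⟨v, rfl⟩
      exact hN v
    omega
  obtain ⟨t, ht⟩ := Nat.exists_eq_add_of_le hle
  obtain ⟨Φ, hΦ⟩ := exists_nf N hN _ t rfl ht
  obtain ⟨Φ', hΦ'⟩ := exists_nf N' hN' _ t h.symm ht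
  refine ⟨Φ ≪≫ₗ Φ'.symm, fun v => ?_⟩
  apply Φ'.injective
  rw [hΦ']
  simp [hΦ]

/-- The centraliser of a non-zero square-zero endomorphism contains elements of determinant `d ^ 2`. -/
theorem exists_commute_det_sq (N : V →ₗ[K] V) (hN : ∀ v, N (N v) = 0) (hne : N ≠ 0) (d : K) :
    ∃ z : V →ₗ[K] V, (∀ v, z (N v) = N (z v)) ∧ LinearMap.det z = d ^ 2 := by
  have hle : 2 * finrank K (range N) ≤ finrank K V := by
    have h1 := LinearMap.finrank_range_add_finrank_ker N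
    have h2 : finrank K (range N) ≤ finrank K (ker N) := by
      apply Submodule.finrank_mono
      rintro _ ⟨v, rfl⟩
      exact hN v
    omega
  obtain ⟨t, ht⟩ := Nat.exists_eq_add_of_le hle
  obtain ⟨s, hs⟩ : ∃ s, finrank K (range N) = s := ⟨_, rfl⟩
  rw [hs] at ht
  obtain ⟨Φ, hΦ⟩ := exists_nf N hN s t hs ht
  have hs0 : 0 < s := by
    rw [← hs, Module.finrank_pos_iff_exists_ne_zero]
    obtain ⟨v, hv⟩ : ∃ v, N v ≠ 0 := by
      by_contra hcon
      push Not at hcon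
      exact hne (LinearMap.ext hcon)
    exact ⟨⟨N v, ⟨v, rfl⟩⟩, fun h0 => hv (congrArg Subtype.val h0)⟩
  -- a map of determinant `d` on `Fin s → K`
  let D : (Fin s → K) →ₗ[K] (Fin s → K) :=
    Matrix.toLin' (Matrix.diagonal (fun i : Fin s => if i = ⟨0, hs0⟩ then d else 1))
  have hD : LinearMap.det D = d := by
    rw [LinearMap.det_toLin', Matrix.det_diagonal, Finset.prod_ite_eq' Finset.univ (⟨0, hs0⟩ : Fin s)]
    simp
  let T : ((Fin s → K) × (Fin s → K) × (Fin t → K)) →ₗ[K] ((Fin s → K) × (Fin s → K) × (Fin t → K)) :=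
    D.prodMap (D.prodMap LinearMap.id)
  have hT : LinearMap.det T = d ^ 2 := by
    rw [LinearMap.det_prodMap, LinearMap.det_prodMap, hD, LinearMap.det_id]; ring
  refine ⟨(Φ.symm : _ →ₗ[K] V) ∘ₗ T ∘ₗ (Φ : V →ₗ[K] _), fun v => ?_, ?_⟩
  · apply Φ.injective
    rw [hΦ]
    simp [T, hΦ]
  · have := LinearMap.det_conj T Φ.symm
    rw [LinearEquiv.symm_symm] at this
    rw [this, hT]

end Cfsg.Agent.Lib.Helper14.SqZero
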