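import Mathlib

set_option autoImplicit false
open scoped Nat

namespace Cfsg.Agent.Lib.Helper14.SymIdx

/-! ### arithmetic -/

theorem fact_gt' (k : ℕ) : 2 ^ (k + 3) * (k + 4)! < (2 * k + 6)! := by
  induction k with
  | zero => decide
  | succ k ih =>
    have e1 : (2 * (k + 1) + 6)! = (2 * k + 8) * ((2 * k + 7) * (2 * k + 6)!) := by
      rw [show 2 * (k + 1) + 6 = (2 * k + 6) + 1 + 1 by ring, Nat.factorial_succ, Nat.factorial_succ]
    have e2 : (k + 1 + 4)! = (k + 5) * (k + 4)! := by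
      rw [show k + 1 + 4 = (k + 4) + 1 by ring, Nat.factorial_succ]
    rw [e1, e2, pow_succ]
    calc 2 ^ (k + 3) * 2 * ((k + 5) * (k + 4)!)
        = (2 * (k + 5)) * (2 ^ (k + 3) * (k + 4)!) := by ring
      _ < (2 * (k + 5)) * (2 * k + 6)! := by
          apply Nat.mul_lt_mul_of_pos_left ih (by omega)
      _ ≤ ((2 * k + 8) * (2 * k + 7)) * (2 * k + 6)! :=
          Nat.mul_le_mul_right _ (by nlinarith)
      _ = _ := by ring

/-- the arithmetic behind "automorphisms of `S_n` preserve transpositions". -/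
theorem arith (n m : ℕ) (hm : 1 ≤ m) (h2 : 2 * m ≤ n) (h6 : n ≠ 6)
    (h : (n - 2 * m)! * 2 ^ m * m ! = (n - 2)! * 2) : m = 1 := by
  obtain ⟨j, rfl⟩ : ∃ j, n = j + 2 * m := ⟨n - 2 * m, by omega⟩
  rw [Nat.add_sub_cancel] at h
  by_contra hne
  have hm2 : 2 ≤ m := by omega
  have hjpos : 0 < j ! := Nat.factorial_pos j
  rcases (by omega : m = 2 ∨ m = 3 ∨ 4 ≤ m) with rfl | rfl | hm4
  · have e : (j + 2 * 2 - 2)! = (j + 2) * ((j + 1) * j !) := by
      rw [show j + 2 * 2 - 2 = j + 1 + 1 by omega, Nat.factorial_succ, Nat.factorial_succ]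
    have e2 : (2 : ℕ)! = 2 := rfl
    rw [e, e2] at h
    have h' : j ! * 4 = j ! * ((j + 2) * (j + 1)) := by nlinarith
    have h'' := Nat.eq_of_mul_eq_mul_left hjpos h'
    rcases (by omega : j = 0 ∨ 1 ≤ j) with rfl | hj
    · omega
    · nlinarith
  · have e : (j + 2 * 3 - 2)! = (j + 4) * ((j + 3) * ((j + 2) * ((j + 1) * j !))) := by
      rw [show j + 2 * 3 - 2 = j + 1 + 1 + 1 + 1 by omega, Nat.factorial_succ, Nat.factorial_succ,
        Nat.factorial_succ, Nat.factorial_succ]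
    have e2 : (3 : ℕ)! = 6 := rfl
    rw [e, e2] at h
    have h' : j ! * 24 = j ! * ((j + 4) * ((j + 3) * ((j + 2) * (j + 1)))) := by nlinarith
    have h'' := Nat.eq_of_mul_eq_mul_left hjpos h'
    rcases (by omega : j = 0 ∨ 1 ≤ j) with rfl | hj
    · omega
    · have h1 : 5 * (4 * (3 * 2)) ≤ (j + 4) * ((j + 3) * ((j + 2) * (j + 1))) := by
        apply Nat.mul_le_mul (by omega)
        apply Nat.mul_le_mul (by omega)
        apply Nat.mul_le_mul (by omega) (by omega)
      omega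
  · obtain ⟨k, rfl⟩ : ∃ k, m = k + 4 := ⟨m - 4, by omega⟩
    have h1 := fact_gt' k
    have h2' : j ! * (2 * k + 6)! ≤ (j + 2 * (k + 4) - 2)! := by
      have e : j + 2 * (k + 4) - 2 = j + (2 * k + 6) := by omega
      rw [e]
      exact Nat.le_of_dvd (Nat.factorial_pos _) (Nat.factorial_mul_factorial_dvd_factorial_add _ _)
    have e3 : 2 ^ (k + 4) = 2 ^ (k + 3) * 2 := by
      rw [← pow_succ]
    rw [e3] at h
    have h4 : j ! * (2 ^ (k + 3) * (k + 4)!) < j ! * (2 * k + 6)! :=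
      Nat.mul_lt_mul_of_pos_left h1 hjpos
    nlinarith

/-! ### isomorphisms preserve transpositions -/

section
variable {α β : Type*} [Fintype α] [DecidableEq α] [Fintype β] [DecidableEq β]

theorem card_centralizer_invol (g : Equiv.Perm α) (k : ℕ)
    (hg : g.cycleType = Multiset.replicate k 2) (hk : 1 ≤ k) :
    Nat.card (Subgroup.centralizer {g}) = (Fintype.card α - 2 * k)! * 2 ^ k * k ! := by
  have h1 : (Multiset.replicate k 2).toFinset = {2} := by
    ext x
    rw [Multiset.mem_toFinset, Multiset.mem_replicate, Finset.mem_singleton]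
    constructor
    · exact fun h => h.2
    · exact fun h => ⟨by omega, h⟩
  rw [Equiv.Perm.nat_card_centralizer, hg, h1]
  simp [Multiset.sum_replicate, Multiset.prod_replicate, mul_comm]

theorem card_centralizer_map (e : Equiv.Perm α ≃* Equiv.Perm β) (g : Equiv.Perm α) :
    Nat.card (Subgroup.centralizer {e g}) = Nat.card (Subgroup.centralizer {g}) := by
  symm
  apply Nat.card_congr
  refine Equiv.subtypeEquiv e.toEquiv ?_
  intro x
  change x ∈ Subgroup.centralizer {g} ↔ e x ∈ Subgroup.centralizer {e g}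
  rw [Subgroup.mem_centralizer_singleton_iff, Subgroup.mem_centralizer_singleton_iff, ← map_mul,
    ← map_mul, EmbeddingLike.apply_eq_iff_eq]

theorem isSwap_map (e : Equiv.Perm α ≃* Equiv.Perm β) (hcard : Fintype.card α = Fintype.card β)
    (h6 : Fintype.card α ≠ 6) (g : Equiv.Perm α) (hg : g.IsSwap) : (e g).IsSwap := by
  have ho : orderOf (e g) = 2 := by
    rw [MulEquiv.orderOf_eq, hg.orderOf]
  obtain ⟨k, hk⟩ := Equiv.Perm.cycleType_prime_order (σ := e g) (by rw [ho]; exact Nat.prime_two)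
  rw [ho] at hk
  have hsum := (e g).sum_cycleType_le
  rw [hk, Multiset.sum_replicate, smul_eq_mul] at hsum
  have h1 := card_centralizer_invol (e g) (k + 1) hk (by omega)
  have h2 := card_centralizer_invol g 1 (by
    rw [Equiv.Perm.isSwap_iff_cycleType.1 hg]; rfl) le_rfl
  rw [card_centralizer_map, h2, ← hcard] at h1
  have h3 := arith (Fintype.card α) (k + 1) (by omega) (by rw [hcard]; omega) h6 (by
    rw [← h1]; simp)
  rw [Equiv.Perm.isSwap_iff_cycleType, hk, h3]
  rfl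

end

/-! ### the common point -/

section
variable {Ω B : Type*} [DecidableEq Ω] [DecidableEq B]

theorem eq_swap_of_moves {s : Equiv.Perm Ω} (hs : s.IsSwap) {u v : Ω} (hu : s u ≠ u) (hv : s v ≠ v)
    (huv : u ≠ v) : s = Equiv.swap u v := by
  obtain ⟨a, c, hac, rfl⟩ := hs
  rw [Equiv.swap_apply_ne_self_iff] at hu hv
  rcases hu.2 with rfl | rfl <;> rcases hv.2 with rfl | rfl
  · exact absurd rfl huv
  · rfl
  · exact Equiv.swap_comm _ _
  · exact absurd rfl huv

theorem not_commute_swap {b₀ b b' : B} (h1 : b ≠ b₀) (h2 : b' ≠ b₀) (h12 : b ≠ b') :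
    ¬ Commute (Equiv.swap b₀ b) (Equiv.swap b₀ b') := by
  intro h
  have := congrArg (fun f : Equiv.Perm B => f b') h.eq
  simp only [Equiv.Perm.mul_apply, Equiv.swap_apply_right, Equiv.swap_apply_left] at this
  rw [Equiv.swap_apply_of_ne_of_ne h2 (Ne.symm h12), Equiv.swap_apply_right] at this
  exact h1 this

theorem exists_common {s t : Equiv.Perm Ω} (h : ¬ Commute s t) : ∃ x, s x ≠ x ∧ t x ≠ x := by
  by_contra hc
  push Not at hc
  apply h
  apply Equiv.Perm.Disjoint.commute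
  intro x
  by_cases hx : s x = x
  · exact Or.inl hx
  · exact Or.inr (hc x hx)

theorem exists_fixed (ε : Equiv.Perm B ≃* Equiv.Perm Ω) (hsw : ∀ g : Equiv.Perm B, g.IsSwap → (ε g).IsSwap)
    (b₀ b₁ b₂ : B) (h01 : b₁ ≠ b₀) (h02 : b₂ ≠ b₀) (h12 : b₁ ≠ b₂) :
    ∃ x : Ω, ∀ g : Equiv.Perm B, g b₀ = b₀ → ε g x = x := by
  have hS : ∀ b, b ≠ b₀ → (ε (Equiv.swap b₀ b)).IsSwap := fun b hb =>
    hsw _ ⟨b₀, b, Ne.symm hb, rfl⟩
  have hnc : ∀ b b', b ≠ b₀ → b' ≠ b₀ → b ≠ b' →
      ¬ Commute (ε (Equiv.swap b₀ b)) (ε (Equiv.swap b₀ b')) := by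
    intro b b' h1 h1' h2 hc
    apply not_commute_swap h1 h1' h2
    have : ε (Equiv.swap b₀ b * Equiv.swap b₀ b') = ε (Equiv.swap b₀ b' * Equiv.swap b₀ b) := by
      rw [map_mul, map_mul]; exact hc.eq
    exact ε.injective this
  have hinj : ∀ b b', ε (Equiv.swap b₀ b) = ε (Equiv.swap b₀ b') → b = b' := by
    intro b b' h
    have := congrArg (fun f : Equiv.Perm B => f b₀) (ε.injective h)
    simpa using this
  obtain ⟨x, hx1, hx2⟩ := exists_common (hnc b₁ b₂ h01 h02 h12)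
  -- uniqueness of the common point
  have huniq : ∀ w, ε (Equiv.swap b₀ b₁) w ≠ w → ε (Equiv.swap b₀ b₂) w ≠ w → w = x := by
    intro w hw1 hw2
    by_contra hwx
    apply h12
    apply hinj
    rw [eq_swap_of_moves (hS b₁ h01) hw1 hx1 hwx, eq_swap_of_moves (hS b₂ h02) hw2 hx2 hwx]
  have hall : ∀ b, b ≠ b₀ → ε (Equiv.swap b₀ b) x ≠ x := by
    intro b hb hbx
    by_cases hb1 : b = b₁
    · subst hb1; exact hx1 hbx
    by_cases hb2 : b = b₂
    · subst hb2; exact hx2 hbx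
    obtain ⟨z₁, hz1, hz1'⟩ := exists_common (hnc b b₁ hb h01 hb1)
    obtain ⟨z₂, hz2, hz2'⟩ := exists_common (hnc b b₂ hb h02 hb2)
    have hz1x : z₁ ≠ x := by rintro rfl; exact hz1 hbx
    have hz2x : z₂ ≠ x := by rintro rfl; exact hz2 hbx
    have e1 := eq_swap_of_moves (hS b₁ h01) hx1 hz1' (Ne.symm hz1x)
    have e2 := eq_swap_of_moves (hS b₂ h02) hx2 hz2' (Ne.symm hz2x)
    have hz12 : z₁ ≠ z₂ := by
      rintro rfl
      exact h12 (hinj _ _ (e1.trans e2.symm))
    have e3 := eq_swap_of_moves (hS b hb) hz1 hz2 hz12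
    have e4 : ε (Equiv.swap b₀ b) =
        ε (Equiv.swap b₀ b₁ * Equiv.swap b₀ b₂ * Equiv.swap b₀ b₁) := by
      rw [map_mul, map_mul, e1, e2, e3, Equiv.swap_comm x z₂,
        Equiv.swap_mul_swap_mul_swap hz2x (Ne.symm hz12)]
    have e5 := congrArg (fun f : Equiv.Perm B => f b) (ε.injective e4)
    simp only [Equiv.Perm.mul_apply, Equiv.swap_apply_right] at e5
    rw [Equiv.swap_apply_of_ne_of_ne hb hb1, Equiv.swap_apply_of_ne_of_ne hb hb2,
      Equiv.swap_apply_of_ne_of_ne hb hb1] at e5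
    exact hb e5.symm
  refine ⟨x, ?_⟩
  intro g hg
  have hconj : ∀ b, b ≠ b₀ → ε (Equiv.swap b₀ b) ((ε g)⁻¹ x) ≠ (ε g)⁻¹ x := by
    intro b hb hfix
    have hgb : g b ≠ b₀ := by
      intro h
      apply hb
      apply g.injective
      rw [h, hg]
    apply hall (g b) hgb
    have : Equiv.swap b₀ (g b) = g * Equiv.swap b₀ b * g⁻¹ := by
      rw [← Equiv.swap_apply_apply, hg]
    rw [this, map_mul, map_mul, map_inv, Equiv.Perm.mul_apply, Equiv.Perm.mul_apply, hfix]
    simp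
  have := huniq _ (hconj b₁ h01) (hconj b₂ h02)
  rw [Equiv.Perm.inv_eq_iff_eq] at this
  exact this.symm

end

/-! ### subgroups of index `n` -/

section
variable {Ω : Type*} [Fintype Ω] [DecidableEq Ω]

theorem eq_stabilizer_of_le (H : Subgroup (Equiv.Perm Ω)) (hH : H.index = Fintype.card Ω) (x : Ω)
    (hle : H ≤ MulAction.stabilizer (Equiv.Perm Ω) x) :
    H = MulAction.stabilizer (Equiv.Perm Ω) x := by
  apply le_antisymm hle
  have h1 := Subgroup.relIndex_mul_index hle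
  have h2 : (MulAction.stabilizer (Equiv.Perm Ω) x).index = Fintype.card Ω := by
    rw [MulAction.index_stabilizer_of_transitive, Nat.card_eq_fintype_card]
  rw [hH, h2] at h1
  have hpos : 0 < Fintype.card Ω := Fintype.card_pos_iff.2 ⟨x⟩
  have h3 : H.relIndex (MulAction.stabilizer (Equiv.Perm Ω) x) = 1 := by
    nlinarith
  exact Subgroup.relIndex_eq_one.1 h3

theorem main_of_core (h6 : Fintype.card Ω ≠ 6) (H : Subgroup (Equiv.Perm Ω))
    (hH : H.index = Fintype.card Ω) (h3 : 3 ≤ Fintype.card Ω) (hcore : H.normalCore = ⊥) :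
    ∃ x : Ω, H = MulAction.stabilizer (Equiv.Perm Ω) x := by
  classical
  haveI : Fintype (Equiv.Perm Ω ⧸ H) := Fintype.ofFinite _
  have hB : Fintype.card (Equiv.Perm Ω ⧸ H) = Fintype.card Ω := by
    rw [← hH, Subgroup.index_eq_card, Nat.card_eq_fintype_card]
  have hinj : Function.Injective (MulAction.toPermHom (Equiv.Perm Ω) (Equiv.Perm Ω ⧸ H)) := by
    rw [← MonoidHom.ker_eq_bot_iff, ← Subgroup.normalCore_eq_ker, hcore]
  have hbij : Function.Bijective (MulAction.toPermHom (Equiv.Perm Ω) (Equiv.Perm Ω ⧸ H)) := by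
    rw [Fintype.bijective_iff_injective_and_card]
    exact ⟨hinj, by rw [Fintype.card_perm, Fintype.card_perm, hB]⟩
  let e : Equiv.Perm Ω ≃* Equiv.Perm (Equiv.Perm Ω ⧸ H) := MulEquiv.ofBijective _ hbij
  have hsw : ∀ g : Equiv.Perm (Equiv.Perm Ω ⧸ H), g.IsSwap → (e.symm g).IsSwap :=
    fun g hg => isSwap_map e.symm hB (by rw [hB]; exact h6) g hg
  obtain ⟨b₁, hb1⟩ : ∃ b₁ : Equiv.Perm Ω ⧸ H, b₁ ≠ ((1 : Equiv.Perm Ω) : Equiv.Perm Ω ⧸ H) :=
    Fintype.exists_ne_of_one_lt_card (by omega) _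
  obtain ⟨b₂, hb2, hb12⟩ : ∃ b₂ : Equiv.Perm Ω ⧸ H,
      b₂ ≠ ((1 : Equiv.Perm Ω) : Equiv.Perm Ω ⧸ H) ∧ b₁ ≠ b₂ := by
    by_contra hc
    push Not at hc
    have : (Finset.univ : Finset (Equiv.Perm Ω ⧸ H)) ⊆
        {((1 : Equiv.Perm Ω) : Equiv.Perm Ω ⧸ H), b₁} := by
      intro b _
      by_cases hb : b = ((1 : Equiv.Perm Ω) : Equiv.Perm Ω ⧸ H)
      · simp [hb]
      · simp [hc b hb]
    have h' := Finset.card_le_card this
    have h'' := Finset.card_le_two (a := ((1 : Equiv.Perm Ω) : Equiv.Perm Ω ⧸ H)) (b := b₁)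
    rw [Finset.card_univ] at h'
    omega
  obtain ⟨x, hx⟩ := exists_fixed e.symm hsw _ b₁ b₂ hb1 hb2 hb12
  refine ⟨x, eq_stabilizer_of_le H hH x ?_⟩
  intro h hh
  rw [MulAction.mem_stabilizer_iff]
  have h1 : e h ((1 : Equiv.Perm Ω) : Equiv.Perm Ω ⧸ H) = ((1 : Equiv.Perm Ω) : Equiv.Perm Ω ⧸ H) := by
    change h • ((1 : Equiv.Perm Ω) : Equiv.Perm Ω ⧸ H) = _
    rw [MulAction.Quotient.smul_coe, smul_eq_mul, mul_one, QuotientGroup.eq]
    simpa using hh
  have := hx (e h) h1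
  rwa [MulEquiv.symm_apply_apply] at this

theorem main_five (h6 : Fintype.card Ω ≠ 6) (H : Subgroup (Equiv.Perm Ω))
    (hH : H.index = Fintype.card Ω) (h5 : 5 ≤ Fintype.card Ω) :
    ∃ x : Ω, H = MulAction.stabilizer (Equiv.Perm Ω) x := by
  apply main_of_core h6 H hH (by omega)
  by_contra hne
  have hnt : Nontrivial H.normalCore := (Subgroup.nontrivial_iff_ne_bot _).2 hne
  have h1 := Equiv.Perm.alternatingGroup_le_of_normal (by rw [Nat.card_eq_fintype_card]; exact h5) hnt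
  have h2 := Subgroup.index_dvd_of_le (h1.trans H.normalCore_le)
  haveI : Nontrivial Ω := Fintype.one_lt_card_iff_nontrivial.1 (by omega)
  rw [hH, alternatingGroup.index_eq_two] at h2
  have := Nat.le_of_dvd (by norm_num) h2
  omega

theorem fixed_of_conj_mem (c : Equiv.Perm Ω) (x : Ω) (hx : ∀ y, c y = y ↔ y = x) (h : Equiv.Perm Ω)
    (hn : h * c * h⁻¹ ∈ Subgroup.zpowers c) : h x = x := by
  obtain ⟨i, hi⟩ := Subgroup.mem_zpowers_iff.1 hn
  have h1 : (c ^ i) x = x := Equiv.Perm.zpow_apply_eq_self_of_apply_eq_self ((hx x).2 rfl) i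
  rw [hi, Equiv.Perm.mul_apply, Equiv.Perm.mul_apply, ← Equiv.Perm.eq_inv_iff_eq, hx] at h1
  rw [Equiv.Perm.inv_eq_iff_eq] at h1
  exact h1.symm

theorem conj_mem_zpowers (H : Subgroup (Equiv.Perm Ω)) (c : Equiv.Perm Ω) (hc : c ∈ H)
    (hcard : Nat.card H ≤ 2 * orderOf c) (h : Equiv.Perm Ω) (hh : h ∈ H) :
    h * c * h⁻¹ ∈ Subgroup.zpowers c := by
  have hle : Subgroup.zpowers c ≤ H := by rwa [Subgroup.zpowers_le]
  have h1 : Nat.card ((Subgroup.zpowers c).subgroupOf H) = orderOf c := by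
    rw [Nat.card_congr (Subgroup.subgroupOfEquivOfLe hle).toEquiv, Nat.card_zpowers]
  have h2 := Subgroup.card_mul_index ((Subgroup.zpowers c).subgroupOf H)
  rw [h1] at h2
  have hpos : 0 < orderOf c := orderOf_pos c
  have h3 : ((Subgroup.zpowers c).subgroupOf H).index ≠ 0 := Subgroup.index_ne_zero_of_finite
  have h4 : ((Subgroup.zpowers c).subgroupOf H).index ≤ 2 := by
    by_contra hlt
    push Not at hlt
    nlinarith
  have hN : ((Subgroup.zpowers c).subgroupOf H).Normal := by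
    rcases (by omega : ((Subgroup.zpowers c).subgroupOf H).index = 1 ∨
        ((Subgroup.zpowers c).subgroupOf H).index = 2) with h5 | h5
    · rw [Subgroup.index_eq_one.1 h5]; infer_instance
    · exact Subgroup.normal_of_index_eq_two h5
  have := hN.conj_mem ⟨c, hc⟩ (by
    rw [Subgroup.mem_subgroupOf]; exact Subgroup.mem_zpowers c) ⟨h, hh⟩
  rw [Subgroup.mem_subgroupOf] at this
  exact this

theorem main_small (p : ℕ) (hp : p.Prime) (hn : Fintype.card Ω = p + 1) (H : Subgroup (Equiv.Perm Ω))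
    (hH : H.index = Fintype.card Ω) (hd : p ∣ Nat.card H) (hcard : Nat.card H ≤ 2 * p) :
    ∃ x : Ω, H = MulAction.stabilizer (Equiv.Perm Ω) x := by
  haveI : Fact p.Prime := ⟨hp⟩
  obtain ⟨c', hc'⟩ := exists_prime_orderOf_dvd_card' (G := H) p hd
  have hc : orderOf (c' : Equiv.Perm Ω) = p := by rw [Subgroup.orderOf_coe, hc']
  obtain ⟨k, hk⟩ := Equiv.Perm.cycleType_prime_order (σ := (c' : Equiv.Perm Ω)) (by rw [hc]; exact hp)
  rw [hc] at hk
  have hsum := (c' : Equiv.Perm Ω).sum_cycleType_le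
  have hsum' := (c' : Equiv.Perm Ω).sum_cycleType
  rw [hk, Multiset.sum_replicate, smul_eq_mul] at hsum hsum'
  have hp2 := hp.two_le
  have hk0 : k = 0 := by
    by_contra hk0
    have : 2 * p ≤ (k + 1) * p := Nat.mul_le_mul_right p (by omega)
    omega
  subst hk0
  have hcompl : ((c' : Equiv.Perm Ω).support)ᶜ.card = 1 := by
    rw [Finset.card_compl, ← hsum', hn]; omega
  obtain ⟨x, hx⟩ := Finset.card_eq_one.1 hcompl
  have hfix : ∀ y, (c' : Equiv.Perm Ω) y = y ↔ y = x := by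
    intro y
    have : y ∈ ((c' : Equiv.Perm Ω).support)ᶜ ↔ y ∈ ({x} : Finset Ω) := by rw [hx]
    rw [Finset.mem_singleton, Finset.mem_compl, Equiv.Perm.mem_support, not_not] at this
    exact this
  refine ⟨x, eq_stabilizer_of_le H hH x ?_⟩
  intro h hh
  rw [MulAction.mem_stabilizer_iff]
  exact fixed_of_conj_mem _ x hfix h (conj_mem_zpowers H _ c'.2 (by rw [hc]; exact hcard) h hh)

theorem main (h6 : Fintype.card Ω ≠ 6) (H : Subgroup (Equiv.Perm Ω))
    (hH : H.index = Fintype.card Ω) :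
    ∃ x : Ω, H = MulAction.stabilizer (Equiv.Perm Ω) x := by
  have hc := Subgroup.card_mul_index H
  rw [hH, Nat.card_eq_fintype_card (α := Equiv.Perm Ω), Fintype.card_perm] at hc
  rcases (by omega : Fintype.card Ω = 0 ∨ Fintype.card Ω = 1 ∨ Fintype.card Ω = 2 ∨
      Fintype.card Ω = 3 ∨ Fintype.card Ω = 4 ∨ 5 ≤ Fintype.card Ω) with h | h | h | h | h | h
  · exfalso
    rw [h] at hH
    exact Subgroup.index_ne_zero_of_finite hH
  · rw [h] at hc
    have hpos : 0 < Fintype.card Ω := by omega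
    obtain ⟨x⟩ := Fintype.card_pos_iff.1 hpos
    refine ⟨x, eq_stabilizer_of_le H hH x ?_⟩
    have h1 : Nat.card H = 1 := by simpa using hc
    rw [Subgroup.card_eq_one.1 h1]
    exact bot_le
  · rw [h] at hc
    have hpos : 0 < Fintype.card Ω := by omega
    obtain ⟨x⟩ := Fintype.card_pos_iff.1 hpos
    refine ⟨x, eq_stabilizer_of_le H hH x ?_⟩
    have h1 : Nat.card H = 1 := by
      have : (2 : ℕ)! = 2 := rfl
      rw [this] at hc
      omega
    rw [Subgroup.card_eq_one.1 h1]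
    exact bot_le
  · rw [h] at hc
    have h1 : Nat.card H = 2 := by
      have : (3 : ℕ)! = 6 := rfl
      rw [this] at hc
      omega
    exact main_small 2 Nat.prime_two h H hH (by rw [h1]) (by rw [h1]; norm_num)
  · rw [h] at hc
    have h1 : Nat.card H = 6 := by
      have : (4 : ℕ)! = 24 := rfl
      rw [this] at hc
      omega
    exact main_small 3 Nat.prime_three h H hH (by rw [h1]; norm_num) (by rw [h1])
  · exact main_five h6 H hH h

end

end Cfsg.Agent.Lib.Helper14.SymIdx
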